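import Mathlib

set_option autoImplicit false
set_option linter.unusedSectionVars false

/-! McLaughlin's theorem over `ZMod p` (`p` odd): groups generated by transvections with trivial
`p`-core.  Base definitions: abstract transvection systems `Sys`, and the group level notions. -/

namespace Cfsg.Agent.Lib.Helper83.Mc

open Module

section abstract

variable {p : ℕ} [Fact p.Prime] {M N : Type*} [AddCommGroup M] [Module (ZMod p) M]
  [AddCommGroup N] [Module (ZMod p) N]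

/-- An abstract system of transvections: `A u φ` says "the transvection `x ↦ x + ⟨φ,x⟩ u` is in the group".
The pairing `B : N × M → F` may a priori be degenerate. -/
structure Sys (B : N →ₗ[ZMod p] M →ₗ[ZMod p] ZMod p) (A : M → N → Prop) : Prop where
  perp : ∀ u φ, A u φ → B φ u = 0
  zl : ∀ φ, A 0 φ
  zr : ∀ u, A u 0
  addl : ∀ u u' φ, A u φ → A u' φ → A (u + u') φ
  addr : ∀ u φ φ', A u φ → A u φ' → A u (φ + φ')
  refl : ∀ w χ u φ, A w χ → A u φ → A (u + B χ u • w) (φ - B φ w • χ)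
  qirl : ∀ W : Submodule (ZMod p) M, (∀ w χ, A w χ → w ∈ W ∨ ∀ x ∈ W, B χ x = 0) →
    W = ⊤ ∨ ∀ x ∈ W, ∀ χ, B χ x = 0
  qirr : ∀ X : Submodule (ZMod p) N, (∀ w χ, A w χ → χ ∈ X ∨ ∀ ψ ∈ X, B ψ w = 0) →
    X = ⊤ ∨ ∀ ψ ∈ X, ∀ w, B ψ w = 0
  r1l : ∀ u φ, A u φ → φ ≠ 0 → (∀ χ, B χ u = 0) → u = 0
  r1r : ∀ u φ, A u φ → u ≠ 0 → (∀ w, B φ w = 0) → φ = 0
  l1 : ∀ u φ u' φ', A u φ → A u' φ' → u ≠ 0 → φ ≠ 0 → (∀ χ, B χ (u' - u) = 0) →
    (∀ w, B (φ' - φ) w = 0) → u' = u ∧ φ' = φ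
  nt : ∃ u φ, A u φ ∧ u ≠ 0 ∧ φ ≠ 0

/-- `u` is a (nonzero) centre. -/
def Pt (A : M → N → Prop) (u : M) : Prop := u ≠ 0 ∧ ∃ φ, φ ≠ 0 ∧ A u φ

/-- the flipped relation -/
def Fl (A : M → N → Prop) : N → M → Prop := fun φ u => A u φ

/-- symmetry of non-perpendicularity -/
def Sym (B : N →ₗ[ZMod p] M →ₗ[ZMod p] ZMod p) (A : M → N → Prop) : Prop :=
  ∀ u v φ ψ', u ≠ 0 → A u φ → B φ v ≠ 0 → A v ψ' → ψ' ≠ 0 → ∃ ψ, A v ψ ∧ B ψ u ≠ 0

variable {B : N →ₗ[ZMod p] M →ₗ[ZMod p] ZMod p} {A : M → N → Prop}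

lemma Sys.smull (S : Sys B A) (c : ZMod p) {u : M} {φ : N} (h : A u φ) : A (c • u) φ := by
  obtain ⟨n, rfl⟩ : ∃ n : ℕ, (n : ZMod p) = c := ⟨c.val, ZMod.natCast_zmod_val c⟩
  induction n with
  | zero => simpa using S.zl φ
  | succ n ih =>
    have := S.addl _ _ _ ih h
    simpa [add_smul] using this

lemma Sys.smulr (S : Sys B A) (c : ZMod p) {u : M} {φ : N} (h : A u φ) : A u (c • φ) := by
  obtain ⟨n, rfl⟩ : ∃ n : ℕ, (n : ZMod p) = c := ⟨c.val, ZMod.natCast_zmod_val c⟩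
  induction n with
  | zero => simpa using S.zr u
  | succ n ih =>
    have := S.addr _ _ _ ih h
    simpa [add_smul] using this

lemma Sys.negl (S : Sys B A) {u : M} {φ : N} (h : A u φ) : A (-u) φ := by
  simpa using S.smull (-1) h

lemma Sys.negr (S : Sys B A) {u : M} {φ : N} (h : A u φ) : A u (-φ) := by
  simpa using S.smulr (-1) h

lemma Sys.subl (S : Sys B A) {u u' : M} {φ : N} (h : A u φ) (h' : A u' φ) : A (u - u') φ := by
  simpa [sub_eq_add_neg] using S.addl _ _ _ h (S.negl h')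

lemma Sys.subr (S : Sys B A) {u : M} {φ φ' : N} (h : A u φ) (h' : A u φ') : A u (φ - φ') := by
  simpa [sub_eq_add_neg] using S.addr _ _ _ h (S.negr h')

lemma Sys.of_smull (S : Sys B A) {c : ZMod p} (hc : c ≠ 0) {u : M} {φ : N} (h : A (c • u) φ) : A u φ := by
  simpa [smul_smul, inv_mul_cancel₀ hc] using S.smull c⁻¹ h

lemma Sys.of_smulr (S : Sys B A) {c : ZMod p} (hc : c ≠ 0) {u : M} {φ : N} (h : A u (c • φ)) : A u φ := by
  simpa [smul_smul, inv_mul_cancel₀ hc] using S.smulr c⁻¹ h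

/-- the system is symmetric in `M` and `N`. -/
lemma Sys.flip (S : Sys B A) : Sys B.flip (Fl A) where
  perp := fun φ u h => by simpa using S.perp u φ h
  zl := fun u => S.zr u
  zr := fun φ => S.zl φ
  addl := fun φ φ' u h h' => S.addr u φ φ' h h'
  addr := fun φ u u' h h' => S.addl u u' φ h h'
  refl := fun χ w φ u h h' => by
    have := S.refl (-w) χ u φ (S.negl h) h'
    simpa [Fl, sub_eq_add_neg] using this
  qirl := fun X hX => by
    simpa using S.qirr X (fun w χ h => by simpa using hX χ w h)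
  qirr := fun W hW => by
    simpa using S.qirl W (fun w χ h => by simpa using hW χ w h)
  r1l := fun φ u h hu hφ => S.r1r u φ h hu (by simpa using hφ)
  r1r := fun φ u h hφ hu => S.r1l u φ h hφ (by simpa using hu)
  l1 := fun φ u φ' u' h h' hφ hu h1 h2 =>
    (S.l1 u φ u' φ' h h' hu hφ (by simpa using h2) (by simpa using h1)).symm
  nt := by
    obtain ⟨u, φ, h, hu, hφ⟩ := S.nt
    exact ⟨φ, u, h, hφ, hu⟩

/-- (♣) -/
lemma Sys.club (S : Sys B A) {u v : M} {φ ψ : N} (h1 : A u φ) (h2 : B φ v ≠ 0) (h3 : A v ψ)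
    (h4 : B ψ u = 0) : A u ψ := by
  have h := S.refl u φ v ψ h1 h3
  rw [h4, zero_smul, sub_zero] at h
  have h' := S.subl h h3
  rw [add_sub_cancel_left] at h'
  exact S.of_smull h2 h'

lemma Pt.smul (S : Sys B A) {c : ZMod p} (hc : c ≠ 0) {u : M} (h : Pt A u) : Pt A (c • u) := by
  obtain ⟨hu, φ, hφ, h⟩ := h
  exact ⟨smul_ne_zero hc hu, φ, hφ, S.smull c h⟩

lemma Pt.neg (S : Sys B A) {u : M} (h : Pt A u) : Pt A (-u) := by
  simpa using Pt.smul S (c := -1) (by simp) h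

/-- a centre is not in the radical -/
lemma Pt.not_rad (S : Sys B A) {u : M} (h : Pt A u) : ∃ χ, B χ u ≠ 0 := by
  obtain ⟨hu, φ, hφ, h⟩ := h
  by_contra hcon
  push Not at hcon
  exact hu (S.r1l u φ h hφ hcon)

end abstract

section group

variable {p : ℕ} [Fact p.Prime] {V : Type*} [AddCommGroup V] [Module (ZMod p) V]

/-- the transvection `x ↦ x + φ x • u` belongs to `G`. -/
def Tv (G : Subgroup (V ≃ₗ[ZMod p] V)) (u : V) (φ : Dual (ZMod p) V) : Prop :=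
  φ u = 0 ∧ ∃ g ∈ G, ∀ x, g x = x + φ x • u

/-- the nontrivial transvection data of `H`. -/
def TT (H : Subgroup (V ≃ₗ[ZMod p] V)) : Set (V × Dual (ZMod p) V) :=
  {x | x.1 ≠ 0 ∧ x.2 ≠ 0 ∧ Tv H x.1 x.2}

/-- two transvections do not commute. -/
def adj (x y : V × Dual (ZMod p) V) : Prop := x.2 y.1 ≠ 0 ∨ y.2 x.1 ≠ 0

/-- `W` is invariant under all transvections of `H`. -/
def Inv (H : Subgroup (V ≃ₗ[ZMod p] V)) (W : Submodule (ZMod p) V) : Prop :=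
  ∀ x ∈ TT H, x.1 ∈ W ∨ ∀ v ∈ W, x.2 v = 0

/-- the hypotheses on `H`: generated by its transvections, and no unipotent normal subgroup
(stabiliser of a chain `0 ≤ D ≤ M ≤ V` of invariant subspaces). -/
structure Good (H : Subgroup (V ≃ₗ[ZMod p] V)) : Prop where
  gen : H = Subgroup.closure {g | ∃ x ∈ TT H, ∀ v, g v = v + x.2 v • x.1}
  unip : ∀ D M : Submodule (ZMod p) V, D ≤ M → Inv H D → Inv H M → ∀ h ∈ H,
    (∀ x, h x - x ∈ M) → (∀ x ∈ M, h x - x ∈ D) → (∀ x ∈ D, h x = x) → h = 1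

/-- a connected component of the non-commuting graph on `TT H`. -/
structure IsComp (H : Subgroup (V ≃ₗ[ZMod p] V)) (C : Set (V × Dual (ZMod p) V)) : Prop where
  ne : C.Nonempty
  sub : C ⊆ TT H
  closed : ∀ x ∈ C, ∀ y ∈ TT H, adj x y → y ∈ C
  conn : ∀ S ⊆ C, S.Nonempty → (∀ x ∈ S, ∀ y ∈ C, adj x y → y ∈ S) → S = C

/-- span of the centres -/
def cM (C : Set (V × Dual (ZMod p) V)) : Submodule (ZMod p) V := Submodule.span _ (Prod.fst '' C)

/-- span of the functionals -/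
def cN (C : Set (V × Dual (ZMod p) V)) : Submodule (ZMod p) (Dual (ZMod p) V) :=
  Submodule.span _ (Prod.snd '' C)

/-- the group generated by the transvections of `C` -/
def cK (C : Set (V × Dual (ZMod p) V)) : Subgroup (V ≃ₗ[ZMod p] V) :=
  Subgroup.closure {g | ∃ x ∈ C, ∀ v, g v = v + x.2 v • x.1}

/-- the evaluation pairing -/
def cB (C : Set (V × Dual (ZMod p) V)) : ↥(cN C) →ₗ[ZMod p] ↥(cM C) →ₗ[ZMod p] ZMod p :=
  (LinearMap.id : Dual (ZMod p) V →ₗ[ZMod p] Dual (ZMod p) V).domRestrict₁₂ (cN C) (cM C)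

@[simp] lemma cB_apply (C : Set (V × Dual (ZMod p) V)) (φ : ↥(cN C)) (u : ↥(cM C)) :
    cB C φ u = (φ : Dual (ZMod p) V) (u : V) := rfl

/-- the abstract system of a component -/
def cA (C : Set (V × Dual (ZMod p) V)) (u : ↥(cM C)) (φ : ↥(cN C)) : Prop :=
  Tv (cK C) (u : V) (φ : Dual (ZMod p) V)

/-- `K` induces on `W` exactly `SL(W)` or exactly `Sp(W, B)`. -/
def RhoOK (K : Subgroup (V ≃ₗ[ZMod p] V)) (W : Submodule (ZMod p) V) : Prop :=
  ∃ ρ : ↥K →* (↥W ≃ₗ[ZMod p] ↥W),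
    (∀ (h : ↥K) (v : ↥W), ((ρ h v : ↥W) : V) = (h : V ≃ₗ[ZMod p] V) (v : V)) ∧
    ((ρ.range : Set (↥W ≃ₗ[ZMod p] ↥W)) =
        {f : ↥W ≃ₗ[ZMod p] ↥W | LinearMap.det (f : ↥W →ₗ[ZMod p] ↥W) = 1} ∨
      ∃ B : LinearMap.BilinForm (ZMod p) ↥W, B.IsAlt ∧ B.Nondegenerate ∧
        (ρ.range : Set (↥W ≃ₗ[ZMod p] ↥W)) = {f : ↥W ≃ₗ[ZMod p] ↥W | ∀ x y, B (f x) (f y) = B x y})

/-- the conclusion of the theorem. -/
def Concl (H : Subgroup (V ≃ₗ[ZMod p] V)) : Prop :=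
  ∃ (n : ℕ) (W : Fin (n + 1) → Submodule (ZMod p) V) (K : Fin n → Subgroup (V ≃ₗ[ZMod p] V)),
      1 ≤ n ∧ DirectSum.IsInternal W ∧
      (∀ h ∈ H, ∀ i, (W i).map (h : V →ₗ[ZMod p] V) = W i) ∧
      (∀ j, K j ≤ H ∧ ((K j).subgroupOf H).Normal) ∧ ⨆ j, K j = H ∧
      (∀ j, K j ⊓ (⨆ j' ∈ {j' : Fin n | j' ≠ j}, K j') = ⊥) ∧
      (∀ j j', j ≠ j' → ∀ a ∈ K j, ∀ b ∈ K j', a * b = b * a) ∧
      (∀ j, ∀ h ∈ K j, ∀ i : Fin (n + 1), i ≠ j.succ → ∀ v ∈ W i, h v = v) ∧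
      (∀ j, RhoOK (K j) (W j.succ))

end group

end Cfsg.Agent.Lib.Helper83.Mc
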