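import Mathlib

set_option autoImplicit false
set_option linter.unusedSectionVars false

/-! Extension-field subgroups: `V` a vector space over `K ⊇ F`; subgroups `G` of `GL_F(V)` containing the
`K`-semilinear maps of determinant one.  Base definitions and the calculus of `1 + M`. -/

namespace Cfsg.Agent.Lib.Helper83.Ext

open Module

variable {F K V : Type*} [Field F] [Field K] [Algebra F K] [AddCommGroup V] [Module F V] [Module K V]
  [IsScalarTower F K V]

/-- `e` is semilinear for the `K`-structure (it normalises `K` inside `End_F V`). -/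
def IsSemi (K : Type*) {F V : Type*} [Field F] [Field K] [AddCommGroup V] [Module F V] [Module K V]
    (e : V ≃ₗ[F] V) : Prop :=
  ∀ k : K, ∃ k' : K, ∀ v, e (k • v) = k' • e v

/-- `G` contains every `K`-semilinear map of `F`-determinant one. -/
def HasH (K : Type*) {F V : Type*} [Field F] [Field K] [AddCommGroup V] [Module F V] [Module K V]
    (G : Subgroup (V ≃ₗ[F] V)) : Prop :=
  ∀ e : V ≃ₗ[F] V, IsSemi K e → LinearEquiv.det e = 1 → e ∈ G

/-- `G` contains a non-trivial `F`-transvection. -/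
def HasTv (G : Subgroup (V ≃ₗ[F] V)) : Prop :=
  ∃ (f : Dual F V) (v : V) (h : f v = 0), f ≠ 0 ∧ v ≠ 0 ∧ LinearEquiv.transvection h ∈ G

/-- `G` contains all `F`-transvections. -/
def AllTv (G : Subgroup (V ≃ₗ[F] V)) : Prop :=
  ∀ (f : Dual F V) (v : V) (h : f v = 0), LinearEquiv.transvection h ∈ G

/-- a `K`-linear equivalence is semilinear. -/
lemma isSemi_restrictScalars (e : V ≃ₗ[K] V) : IsSemi K (e.restrictScalars F) :=
  fun k => ⟨k, fun v => by simp⟩

/-- `K`-transvection `x ↦ x + η x • t` as an `F`-linear equivalence. -/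
noncomputable def kt (F : Type*) {K V : Type*} [Field F] [Field K] [Algebra F K] [AddCommGroup V]
    [Module F V] [Module K V] [IsScalarTower F K V] {η : Dual K V} {t : V} (h : η t = 0) : V ≃ₗ[F] V :=
  (LinearEquiv.transvection h).restrictScalars F

@[simp] lemma kt_apply {η : Dual K V} {t : V} (h : η t = 0) (x : V) : kt F h x = x + η x • t := by
  simp [kt, LinearMap.transvection.apply]

/-- `K`-dilatation `x ↦ x + η x • t` (`1 + η t ≠ 0`) as an `F`-linear equivalence. -/
noncomputable def kd (F : Type*) {K V : Type*} [Field F] [Field K] [Algebra F K] [AddCommGroup V]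
    [Module F V] [Module K V] [IsScalarTower F K V] {η : Dual K V} {t : V} (h : IsUnit (1 + η t)) :
    V ≃ₗ[F] V :=
  (LinearEquiv.dilatransvection h).restrictScalars F

@[simp] lemma kd_apply {η : Dual K V} {t : V} (h : IsUnit (1 + η t)) (x : V) :
    kd F h x = x + η x • t := by
  simp [kd, LinearEquiv.dilatransvection.apply]

lemma det_restrictScalars_equiv [FiniteDimensional F K] (e : V ≃ₗ[K] V) :
    ((LinearEquiv.det (e.restrictScalars F) : Fˣ) : F) = Algebra.norm F ((LinearEquiv.det e : Kˣ) : K) := by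
  rw [LinearEquiv.coe_det, LinearEquiv.coe_det]
  exact LinearMap.det_restrictScalars (R := F) (S := K) (f := (e : V →ₗ[K] V))

lemma kt_mem [FiniteDimensional F K] {G : Subgroup (V ≃ₗ[F] V)} (hH : HasH K G) {η : Dual K V} {t : V}
    (h : η t = 0) : kt F h ∈ G := by
  apply hH _ (isSemi_restrictScalars _)
  apply Units.ext
  rw [det_restrictScalars_equiv]
  simp

lemma kd_mem [FiniteDimensional F K] [FiniteDimensional K V] {G : Subgroup (V ≃ₗ[F] V)} (hH : HasH K G)
    {η : Dual K V} {t : V}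
    (h : IsUnit (1 + η t)) (hn : Algebra.norm F (1 + η t) = 1) : kd F h ∈ G := by
  apply hH _ (isSemi_restrictScalars _)
  apply Units.ext
  rw [det_restrictScalars_equiv, LinearEquiv.coe_det]
  simp [hn]

/-! ### the set of endomorphisms underlying a subgroup -/

/-- endomorphisms underlying the elements of `G`. -/
def MS (G : Subgroup (V ≃ₗ[F] V)) : Set (Module.End F V) := {φ | ∃ g ∈ G, (g : V →ₗ[F] V) = φ}

variable {G : Subgroup (V ≃ₗ[F] V)}

lemma MS_of_mem {g : V ≃ₗ[F] V} (hg : g ∈ G) : (g : V →ₗ[F] V) ∈ MS G := ⟨g, hg, rfl⟩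

lemma MS_one : (1 : Module.End F V) ∈ MS G := ⟨1, G.one_mem, rfl⟩

lemma MS_mul {a b : Module.End F V} (ha : a ∈ MS G) (hb : b ∈ MS G) : a * b ∈ MS G := by
  obtain ⟨g, hg, rfl⟩ := ha
  obtain ⟨k, hk, rfl⟩ := hb
  exact ⟨g * k, G.mul_mem hg hk, rfl⟩

/-- if `a ∈ MS G` and `a * b = 1` then `b ∈ MS G`. -/
lemma MS_inv {a b : Module.End F V} (ha : a ∈ MS G) (hab : a * b = 1) : b ∈ MS G := by
  obtain ⟨g, hg, rfl⟩ := ha
  refine ⟨g⁻¹, G.inv_mem hg, ?_⟩
  ext x
  have h := LinearMap.congr_fun hab x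
  simp only [Module.End.mul_apply, Module.End.one_apply, LinearEquiv.coe_coe] at h
  show g.symm x = b x
  rw [LinearEquiv.symm_apply_eq]
  exact h.symm

lemma MS_sub_of_sq {M : Module.End F V} (h : 1 + M ∈ MS G) (hM : M * M = 0) : 1 - M ∈ MS G := by
  apply MS_inv h
  have : (1 + M) * (1 - M) = 1 - M * M := by noncomm_ring
  rw [this, hM, sub_zero]

/-- conjugation by an element of `G`. -/
lemma MS_conj {g : V ≃ₗ[F] V} (hg : g ∈ G) {a : Module.End F V} (ha : a ∈ MS G) :
    (g : V →ₗ[F] V) ∘ₗ a ∘ₗ (g.symm : V →ₗ[F] V) ∈ MS G := by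
  obtain ⟨k, hk, rfl⟩ := ha
  exact ⟨g * k * g⁻¹, G.mul_mem (G.mul_mem hg hk) (G.inv_mem hg), rfl⟩

/-- commutator formula: `M² = N² = N M = 0` gives `1 + M N ∈ G`. -/
lemma MS_comm {M N : Module.End F V} (hM : 1 + M ∈ MS G) (hN : 1 + N ∈ MS G) (hMM : M * M = 0)
    (hNN : N * N = 0) (hNM : N * M = 0) : 1 + M * N ∈ MS G := by
  have h := MS_mul (MS_mul (MS_mul hM hN) (MS_sub_of_sq hM hMM)) (MS_sub_of_sq hN hNN)
  have e : (1 + M) * (1 + N) * (1 - M) * (1 - N) = 1 + M * N - M * M + (M * M) * N - N * M - N * N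
      + (N * M) * N - M * (N * M) - M * (N * N) + M * (N * M) * N := by
    noncomm_ring
  rw [e, hMM, hNN, hNM] at h
  simpa using h

/-- general commutator formula: `M² = N² = 0`, `M N M = 0 = N M N` gives `1 + M N - N M ∈ G`. -/
lemma MS_comm' {M N : Module.End F V} (hM : 1 + M ∈ MS G) (hN : 1 + N ∈ MS G) (hMM : M * M = 0)
    (hNN : N * N = 0) (hMNM : M * N * M = 0) (hNMN : N * M * N = 0) : 1 + (M * N - N * M) ∈ MS G := by
  have h := MS_mul (MS_mul (MS_mul hM hN) (MS_sub_of_sq hM hMM)) (MS_sub_of_sq hN hNN)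
  have e : (1 + M) * (1 + N) * (1 - M) * (1 - N) = 1 + (M * N - N * M) - M * M + (M * M) * N - N * N
      + (N * M * N) - (M * N * M) - M * (N * N) + (M * N * M) * N := by
    noncomm_ring
  rw [e, hMM, hNN, hMNM, hNMN] at h
  simpa using h

/-- transvections in terms of `MS`. -/
lemma MS_tv_iff {f : Dual F V} {v : V} (h : f v = 0) :
    LinearEquiv.transvection h ∈ G ↔ 1 + f.smulRight v ∈ MS G := by
  have e : ((LinearEquiv.transvection h : V ≃ₗ[F] V) : V →ₗ[F] V) = 1 + f.smulRight v := by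
    ext x
    simp [LinearMap.transvection.apply]
  constructor
  · intro hg
    exact ⟨_, hg, e⟩
  · rintro ⟨g, hg, hgv⟩
    have : g = LinearEquiv.transvection h := by
      apply LinearEquiv.toLinearMap_injective
      rw [hgv, e]
    rwa [← this]

/-- `kt` in terms of `MS`. -/
lemma kt_coe {η : Dual K V} {t : V} (h : η t = 0) :
    ((kt F h : V ≃ₗ[F] V) : V →ₗ[F] V) = 1 + ((η.smulRight t).restrictScalars F : V →ₗ[F] V) := by
  ext x
  simp

/-- there is a vector outside a given `K`-line. -/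
lemma exists_not_mem_line [FiniteDimensional K V] (hm : 2 ≤ finrank K V) (v : V) :
    ∃ w : V, ∀ k : K, w ≠ k • v := by
  by_contra hcon
  push Not at hcon
  have htop : (K ∙ v) = ⊤ := by
    rw [eq_top_iff]
    intro w _
    obtain ⟨k, hk⟩ := hcon w
    rw [hk]
    exact Submodule.smul_mem _ _ (Submodule.mem_span_singleton_self v)
  have h1 : finrank K (K ∙ v) ≤ 1 := by
    have := finrank_span_le_card (R := K) ({v} : Set V)
    simpa using this
  rw [htop, finrank_top] at h1
  omega

/-- a non-semilinear map moves some `K`-point off a `K`-point. -/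
theorem exists_nonpoint [Finite K] [FiniteDimensional K V] (hm : 2 ≤ finrank K V) {g : V ≃ₗ[F] V}
    (hns : ¬ IsSemi K g) : ∃ (v : V) (k : K), ∀ k' : K, g (k • v) ≠ k' • g v := by
  by_contra hcon
  push Not at hcon
  apply hns
  -- Claim A
  have hA : ∀ u v : V, v ≠ 0 → ∀ c : K, g u = c • g v → ∃ k₁ : K, u = k₁ • v := by
    intro u v hv c hc
    choose φ hφ using fun k₁ : K => hcon v k₁
    have hgv : g v ≠ 0 := by simpa using hv
    have hinj : Function.Injective φ := by
      intro a b hab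
      have h1 : g (a • v) = g (b • v) := by rw [hφ, hφ, hab]
      have h2 := g.injective h1
      exact smul_left_injective K hv h2
    obtain ⟨k₁, hk₁⟩ := (Finite.injective_iff_surjective.1 hinj) c
    refine ⟨k₁, g.injective ?_⟩
    rw [hc, hφ, hk₁]
  intro k
  choose c hc using fun v : V => hcon v k
  have hB : ∀ u v : V, v ≠ 0 → (∀ k₁ : K, u ≠ k₁ • v) → c u = c v := by
    intro u v hv hu
    have h1 : g (k • (u + v)) = c (u + v) • (g u + g v) := by rw [hc, map_add]
    have h2 : g (k • (u + v)) = c u • g u + c v • g v := by rw [smul_add, map_add, hc, hc]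
    have h3 : (c (u + v) - c u) • g u = (c v - c (u + v)) • g v := by
      have := h1.symm.trans h2
      rw [smul_add] at this
      rw [sub_smul, sub_smul, sub_eq_sub_iff_add_eq_add]
      rw [this]; abel
    have hgv : g v ≠ 0 := by simpa using hv
    have h4 : c (u + v) = c u := by
      by_contra hne
      have hne' : c (u + v) - c u ≠ 0 := sub_ne_zero.2 hne
      have : g u = ((c (u + v) - c u)⁻¹ * (c v - c (u + v))) • g v := by
        rw [mul_smul, ← h3, smul_smul, inv_mul_cancel₀ hne', one_smul]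
      obtain ⟨k₁, hk₁⟩ := hA u v hv _ this
      exact hu k₁ hk₁
    rw [h4, sub_self, zero_smul] at h3
    have h5 := (smul_eq_zero.1 h3.symm).resolve_right hgv
    exact (sub_eq_zero.1 h5).symm
  obtain ⟨v₀, hv₀⟩ : ∃ v₀ : V, v₀ ≠ 0 := by
    obtain ⟨w, hw⟩ := exists_not_mem_line (K := K) hm (0 : V)
    exact ⟨w, fun h => hw 0 (by simp [h])⟩
  refine ⟨c v₀, fun v => ?_⟩
  rw [hc]
  by_cases hv : v = 0
  · simp [hv]
  by_cases hvl : ∀ k₁ : K, v ≠ k₁ • v₀
  · rw [hB v v₀ hv₀ hvl]
  · push Not at hvl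
    obtain ⟨k₁, hk₁⟩ := hvl
    have hk₁0 : k₁ ≠ 0 := by
      rintro rfl
      simp at hk₁
      exact hv hk₁
    obtain ⟨w, hw⟩ := exists_not_mem_line (K := K) hm v₀
    have hw' : ∀ k₂ : K, w ≠ k₂ • v := by
      intro k₂ h
      apply hw (k₂ * k₁)
      rw [h, hk₁, smul_smul]
    rw [← hB w v hv hw', hB w v₀ hv₀ hw]

end Cfsg.Agent.Lib.Helper83.Ext
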