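import Mathlib
import Cfsg.Agent.Lib.Helper83.McBase

set_option autoImplicit false
set_option linter.unusedSectionVars false

/-! Closure properties of `Tv G` and first facts on components. -/

namespace Cfsg.Agent.Lib.Helper83.Mc

open Module

variable {p : ℕ} [Fact p.Prime] {V : Type*} [AddCommGroup V] [Module (ZMod p) V]
variable {G H : Subgroup (V ≃ₗ[ZMod p] V)}

lemma Tv.mono {G' : Subgroup (V ≃ₗ[ZMod p] V)} (h : G ≤ G') {u : V} {φ : Dual (ZMod p) V}
    (ht : Tv G u φ) : Tv G' u φ := by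
  obtain ⟨h0, g, hg, hgx⟩ := ht
  exact ⟨h0, g, h hg, hgx⟩

lemma Tv.zl (G : Subgroup (V ≃ₗ[ZMod p] V)) (φ : Dual (ZMod p) V) : Tv G 0 φ :=
  ⟨by simp, 1, G.one_mem, fun x => by simp⟩

lemma Tv.zr (G : Subgroup (V ≃ₗ[ZMod p] V)) (u : V) : Tv G u 0 :=
  ⟨by simp, 1, G.one_mem, fun x => by simp⟩

lemma Tv.addl {u u' : V} {φ : Dual (ZMod p) V} (h : Tv G u φ) (h' : Tv G u' φ) : Tv G (u + u') φ := by
  obtain ⟨h0, g, hg, hgx⟩ := h
  obtain ⟨h0', g', hg', hgx'⟩ := h'
  refine ⟨by simp [h0, h0'], g * g', G.mul_mem hg hg', fun x => ?_⟩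
  rw [LinearEquiv.mul_apply, hgx, hgx']
  simp only [map_add, map_smul, h0', smul_eq_mul, mul_zero, add_zero, smul_add]
  abel

lemma Tv.addr {u : V} {φ φ' : Dual (ZMod p) V} (h : Tv G u φ) (h' : Tv G u φ') : Tv G u (φ + φ') := by
  obtain ⟨h0, g, hg, hgx⟩ := h
  obtain ⟨h0', g', hg', hgx'⟩ := h'
  refine ⟨by simp [h0, h0'], g * g', G.mul_mem hg hg', fun x => ?_⟩
  rw [LinearEquiv.mul_apply, hgx, hgx']
  simp only [map_add, map_smul, h0, smul_eq_mul, mul_zero, add_zero, LinearMap.add_apply, add_smul]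
  abel

/-- conjugation -/
lemma Tv.conj {u : V} {φ : Dual (ZMod p) V} (h : Tv G u φ) {k : V ≃ₗ[ZMod p] V} (hk : k ∈ G) :
    Tv G (k u) (φ.comp (k⁻¹ : V ≃ₗ[ZMod p] V).toLinearMap) := by
  obtain ⟨h0, g, hg, hgx⟩ := h
  refine ⟨by simp [h0], k * g * k⁻¹, G.mul_mem (G.mul_mem hk hg) (G.inv_mem hk), fun x => ?_⟩
  rw [LinearEquiv.mul_apply, LinearEquiv.mul_apply, hgx]
  simp

lemma Tv.refl {w u : V} {χ φ : Dual (ZMod p) V} (h : Tv G w χ) (h' : Tv G u φ) :
    Tv G (u + χ u • w) (φ - φ w • χ) := by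
  obtain ⟨h0, g, hg, hgx⟩ := h
  have hc := h'.conj hg
  have hinv : ∀ x, g⁻¹ x = x - χ x • w := by
    intro x
    have : g (x - χ x • w) = x := by
      rw [hgx]; simp [h0]
    calc g⁻¹ x = g⁻¹ (g (x - χ x • w)) := by rw [this]
      _ = x - χ x • w := by simp
  have e1 : g u = u + χ u • w := hgx u
  have e2 : φ.comp (g⁻¹ : V ≃ₗ[ZMod p] V).toLinearMap = φ - φ w • χ := by
    ext x
    have : (φ.comp (g⁻¹ : V ≃ₗ[ZMod p] V).toLinearMap) x = φ (g⁻¹ x) := rfl
    rw [this, hinv]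
    simp [mul_comm]
  rwa [e1, e2] at hc

/-- a trivial transvection has trivial data -/
lemma eq_zero_of_forall {u : V} {φ : Dual (ZMod p) V} (h : ∀ x, φ x • u = 0) : u = 0 ∨ φ = 0 := by
  by_cases hφ : φ = 0
  · exact Or.inr hφ
  · left
    obtain ⟨x, hx⟩ : ∃ x, φ x ≠ 0 := by
      by_contra hcon
      push Not at hcon
      exact hφ (LinearMap.ext hcon)
    exact (smul_eq_zero.mp (h x)).resolve_left hx

lemma Tv.smull (c : ZMod p) {u : V} {φ : Dual (ZMod p) V} (h : Tv G u φ) : Tv G (c • u) φ := by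
  obtain ⟨n, rfl⟩ : ∃ n : ℕ, (n : ZMod p) = c := ⟨c.val, ZMod.natCast_zmod_val c⟩
  induction n with
  | zero => simpa using Tv.zl G φ
  | succ n ih =>
    have := ih.addl h
    simpa [add_smul] using this

lemma Tv.smulr (c : ZMod p) {u : V} {φ : Dual (ZMod p) V} (h : Tv G u φ) : Tv G u (c • φ) := by
  obtain ⟨n, rfl⟩ : ∃ n : ℕ, (n : ZMod p) = c := ⟨c.val, ZMod.natCast_zmod_val c⟩
  induction n with
  | zero => simpa using Tv.zr G u
  | succ n ih =>
    have := ih.addr h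
    simpa [add_smul] using this

lemma Tv.negl {u : V} {φ : Dual (ZMod p) V} (h : Tv G u φ) : Tv G (-u) φ := by
  simpa using h.smull (-1)

lemma Tv.subl {u u' : V} {φ : Dual (ZMod p) V} (h : Tv G u φ) (h' : Tv G u' φ) : Tv G (u - u') φ := by
  simpa [sub_eq_add_neg] using h.addl h'.negl

lemma Tv.of_smull {c : ZMod p} (hc : c ≠ 0) {u : V} {φ : Dual (ZMod p) V} (h : Tv G (c • u) φ) :
    Tv G u φ := by
  simpa [smul_smul, inv_mul_cancel₀ hc] using h.smull c⁻¹

/-- (♣) at the group level -/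
lemma Tv.club {u v : V} {φ ψ : Dual (ZMod p) V} (h1 : Tv G u φ) (h2 : φ v ≠ 0) (h3 : Tv G v ψ)
    (h4 : ψ u = 0) : Tv G u ψ := by
  have h := h1.refl h3
  rw [h4, zero_smul, sub_zero] at h
  have h' := h.subl h3
  rw [add_sub_cancel_left] at h'
  exact h'.of_smull h2

/-- a transvection of a `Good` group whose centre lies in an invariant subspace `W` contained in its
axis is trivial. -/
lemma Good.no_central (hH : Good H) {W : Submodule (ZMod p) V} (hW : Inv H W) {w : V}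
    {χ : Dual (ZMod p) V} (h : Tv H w χ) (hw : w ∈ W) (hχ : ∀ v ∈ W, χ v = 0) : w = 0 ∨ χ = 0 := by
  obtain ⟨-, g, hg, hgx⟩ := h
  have h1 : g = 1 := by
    apply hH.unip W W le_rfl hW hW g hg
    · intro x; rw [hgx, add_sub_cancel_left]; exact W.smul_mem _ hw
    · intro x hx; rw [hgx, hχ x hx]; simp
    · intro x hx; rw [hgx, hχ x hx]; simp
  apply eq_zero_of_forall
  intro x
  have := hgx x
  rw [h1] at this
  simpa using this.symm

/-- existence of the transvection as a linear equivalence -/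
lemma exists_tv {u : V} {φ : Dual (ZMod p) V} (h : φ u = 0) :
    ∃ g : V ≃ₗ[ZMod p] V, ∀ x, g x = x + φ x • u :=
  ⟨LinearEquiv.transvection h, fun x => by simp [LinearMap.transvection.apply]⟩

/-! ### components -/

variable {C : Set (V × Dual (ZMod p) V)}

lemma fst_mem_cM {x : V × Dual (ZMod p) V} (hx : x ∈ C) : x.1 ∈ cM C :=
  Submodule.subset_span ⟨x, hx, rfl⟩

lemma snd_mem_cN {x : V × Dual (ZMod p) V} (hx : x ∈ C) : x.2 ∈ cN C :=
  Submodule.subset_span ⟨x, hx, rfl⟩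

lemma cK_le (hC : C ⊆ TT H) : cK C ≤ H := by
  rw [cK, Subgroup.closure_le]
  rintro g ⟨x, hx, hg⟩
  obtain ⟨-, -, -, g', hg', hgx'⟩ := hC hx
  have : g = g' := by
    ext v; rw [hg, hgx']
  rw [this]; exact hg'

lemma tv_of_mem (hC : C ⊆ TT H) {x : V × Dual (ZMod p) V} (hx : x ∈ C) : Tv (cK C) x.1 x.2 := by
  obtain ⟨-, -, h0, g', -, hgx'⟩ := hC hx
  exact ⟨h0, g', Subgroup.subset_closure ⟨x, hx, hgx'⟩, hgx'⟩

/-- a transvection outside the component is perpendicular to it -/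
lemma perp_of_notMem (hC : IsComp H C) {y : V × Dual (ZMod p) V} (hy : y ∈ TT H) (hyC : y ∉ C) :
    (∀ v ∈ cM C, y.2 v = 0) ∧ (∀ φ ∈ cN C, φ y.1 = 0) := by
  have key : ∀ x ∈ C, y.2 x.1 = 0 ∧ x.2 y.1 = 0 := by
    intro x hx
    by_contra hcon
    apply hyC
    apply hC.closed x hx y hy
    unfold adj
    by_contra h2
    push Not at h2
    exact hcon ⟨h2.2, h2.1⟩
  constructor
  · intro v hv
    induction hv using Submodule.span_induction with
    | mem v hv => obtain ⟨x, hx, rfl⟩ := hv; exact (key x hx).1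
    | zero => simp
    | add a b _ _ ha hb => simp [ha, hb]
    | smul c a _ ha => simp [ha]
  · intro φ hφ
    induction hφ using Submodule.span_induction with
    | mem v hv => obtain ⟨x, hx, rfl⟩ := hv; exact (key x hx).2
    | zero => simp
    | add a b _ _ ha hb => simp [ha, hb]
    | smul c a _ ha => simp [ha]

lemma inv_cM (hC : IsComp H C) : Inv H (cM C) := by
  intro y hy
  by_cases hyC : y ∈ C
  · exact Or.inl (fst_mem_cM hyC)
  · exact Or.inr (perp_of_notMem hC hy hyC).1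

/-- elements of `cK C` act trivially on `V / cM C` -/
lemma cK_sub_mem {g : V ≃ₗ[ZMod p] V} (hg : g ∈ cK C) : ∀ v, g v - v ∈ cM C := by
  induction hg using Subgroup.closure_induction with
  | mem g hg =>
    obtain ⟨x, hx, hgx⟩ := hg
    intro v
    rw [hgx, add_sub_cancel_left]
    exact (cM C).smul_mem _ (fst_mem_cM hx)
  | one => intro v; simp
  | mul a b _ _ ha hb =>
    intro v
    have : (a * b) v - v = (a (b v) - b v) + (b v - v) := by simp
    rw [this]
    exact (cM C).add_mem (ha _) (hb _)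
  | inv a _ ha =>
    intro v
    have : a⁻¹ v - v = - (a (a⁻¹ v) - a⁻¹ v) := by simp
    rw [this]
    exact (cM C).neg_mem (ha _)

lemma cK_map_mem {g : V ≃ₗ[ZMod p] V} (hg : g ∈ cK C) {v : V} (hv : v ∈ cM C) : g v ∈ cM C := by
  have := (cM C).add_mem (cK_sub_mem hg v) hv
  simpa using this

/-- elements of `cK C` fix every vector killed by `cN C` -/
lemma cK_fix {g : V ≃ₗ[ZMod p] V} (hg : g ∈ cK C) {v : V} (hv : ∀ φ ∈ cN C, φ v = 0) : g v = v := by
  induction hg using Subgroup.closure_induction with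
  | mem g hg =>
    obtain ⟨x, hx, hgx⟩ := hg
    rw [hgx, hv _ (snd_mem_cN hx)]; simp
  | one => simp
  | mul a b _ _ ha hb => rw [LinearEquiv.mul_apply, hb, ha]
  | inv a _ ha =>
    calc a⁻¹ v = a⁻¹ (a v) := by rw [ha]
      _ = v := by simp

end Cfsg.Agent.Lib.Helper83.Mc
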