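import Cfsg.Agent.Lib.Helper83.ExtBase

set_option autoImplicit false
set_option linter.unusedSectionVars false
set_option linter.unusedVariables false

/-! Extension-field subgroups: the maximal-intersection argument. -/

namespace Cfsg.Agent.Lib.Helper83.Ext

open Module

variable {F K V : Type*} [Field F] [Field K] [Algebra F K] [AddCommGroup V] [Module F V] [Module K V]
  [IsScalarTower F K V]

lemma exists_dual2 {w a : V} (ha : ∀ k : K, a ≠ k • w) (δ : K) :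
    ∃ η : Dual K V, η w = 0 ∧ η a = δ := by
  have h : a ∉ (K ∙ w) := by
    intro h
    obtain ⟨k, hk⟩ := Submodule.mem_span_singleton.1 h
    exact ha k hk.symm
  obtain ⟨f, hfa, hf⟩ := Submodule.exists_le_ker_of_notMem h
  refine ⟨(δ / f a) • f, ?_, ?_⟩
  · have : f w = 0 := hf (Submodule.mem_span_singleton_self w)
    simp [this]
  · simp [hfa]

lemma exists_dual3 {w a b : V} (ha : a ∉ Submodule.span K {w, b}) (hb : b ∉ Submodule.span K {w, a})
    (δ κ : K) : ∃ η : Dual K V, η w = 0 ∧ η a = δ ∧ η b = κ := by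
  obtain ⟨f, hfa, hf⟩ := Submodule.exists_le_ker_of_notMem ha
  obtain ⟨f', hfb, hf'⟩ := Submodule.exists_le_ker_of_notMem hb
  have h1 : f w = 0 := hf (Submodule.subset_span (by simp))
  have h2 : f b = 0 := hf (Submodule.subset_span (by simp))
  have h3 : f' w = 0 := hf' (Submodule.subset_span (by simp))
  have h4 : f' a = 0 := hf' (Submodule.subset_span (by simp))
  refine ⟨(δ / f a) • f + (κ / f' b) • f', ?_, ?_, ?_⟩
  · simp [h1, h3]
  · simp [h4, hfa]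
  · simp [h2, hfb]

/-- the set of `k` with `g (k v) ∈ K w`. -/
def SS (K : Type*) {F V : Type*} [Field F] [Field K] [AddCommGroup V] [Module F V] [Module K V]
    (g : V ≃ₗ[F] V) (v w : V) : Set K := {k | ∃ k' : K, g (k • v) = k' • w}

/-- a configuration: `A = g (K v)` meets `P = K w` non-trivially and is not contained in it. -/
def Valid (K : Type*) {F V : Type*} [Field F] [Field K] [AddCommGroup V] [Module F V] [Module K V]
    (G : Subgroup (V ≃ₗ[F] V)) (g : V ≃ₗ[F] V) (v w : V) : Prop :=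
  g ∈ G ∧ v ≠ 0 ∧ w ≠ 0 ∧ (∃ k : K, k ≠ 0 ∧ k ∈ SS K g v w) ∧ (∃ k : K, k ∉ SS K g v w)

lemma exists_valid [Finite K] [FiniteDimensional K V] (hm : 2 ≤ finrank K V) {G : Subgroup (V ≃ₗ[F] V)}
    {g : V ≃ₗ[F] V} (hg : g ∈ G) (hns : ¬ IsSemi K g) : ∃ v w, Valid K G g v w := by
  obtain ⟨v, k, hk⟩ := exists_nonpoint hm hns
  have hv : v ≠ 0 := by
    rintro rfl
    exact hk 0 (by simp)
  refine ⟨v, g v, hg, hv, by simpa using hv, ⟨1, one_ne_zero, 1, by simp⟩, ⟨k, ?_⟩⟩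
  rintro ⟨k', hk'⟩
  exact hk k' hk'

lemma exists_max_valid [Finite K] {G : Subgroup (V ≃ₗ[F] V)} (h : ∃ g v w, Valid K G g v w) :
    ∃ g v w, Valid K G g v w ∧ ∀ g' v' w', Valid K G g' v' w' →
      (SS K g' v' w').ncard ≤ (SS K g v w).ncard := by
  classical
  let P : ℕ → Prop := fun n => ∃ g v w, Valid K G g v w ∧ Nat.card K - (SS K g v w).ncard = n
  have hP : ∃ n, P n := by
    obtain ⟨g, v, w, hv⟩ := h
    exact ⟨_, g, v, w, hv, rfl⟩
  obtain ⟨g, v, w, hv, hn⟩ := Nat.find_spec hP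
  refine ⟨g, v, w, hv, fun g' v' w' hv' => ?_⟩
  have h1 : Nat.find hP ≤ Nat.card K - (SS K g' v' w').ncard := Nat.find_min' hP ⟨g', v', w', hv', rfl⟩
  have h2 := Set.ncard_le_card (SS K g' v' w')
  have h3 := Set.ncard_le_card (SS K g v w)
  omega

/-- the key consequence of maximality. -/
lemma spade [Finite K] [FiniteDimensional F K] {G : Subgroup (V ≃ₗ[F] V)} (hH : HasH K G) {g : V ≃ₗ[F] V} {v w : V}
    (hv : Valid K G g v w)
    (hmax : ∀ g' v' w', Valid K G g' v' w' → (SS K g' v' w').ncard ≤ (SS K g v w).ncard)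
    (η : Dual K V) (hη : η w = 0) (τ : K) (ka : K) (hka : ka ∉ SS K g v w)
    (hka' : ∃ k₂ : K, η (g (ka • v)) • τ • w = g (k₂ • v)) :
    ∀ k : K, ∃ k₂ : K, η (g (k • v)) • τ • w = g (k₂ • v) := by
  obtain ⟨hg, hv0, hw0, ⟨k1, hk10, hk1⟩, -⟩ := hv
  have hηt : η (τ • w) = 0 := by simp [hη]
  set x : V ≃ₗ[F] V := kt F hηt with hx
  have hxG : x ∈ G := kt_mem hH hηt
  set g' : V ≃ₗ[F] V := g⁻¹ * x * g with hg'
  have hg'G : g' ∈ G := G.mul_mem (G.mul_mem (G.inv_mem hg) hxG) hg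
  have hg'a : ∀ u, g' u = g.symm (g u + η (g u) • τ • w) := by
    intro u
    show g.symm (x (g u)) = _
    rw [hx, kt_apply]
  have hsub : SS K g v w ⊆ SS K g' v v := by
    rintro k ⟨k', hk'⟩
    refine ⟨k, ?_⟩
    rw [hg'a, hk']
    simp only [map_smul, hη, smul_zero, zero_smul, add_zero]
    rw [← hk', LinearEquiv.symm_apply_apply]
  have hka2 : ka ∈ SS K g' v v := by
    obtain ⟨k₂, hk₂⟩ := hka'
    refine ⟨ka + k₂, ?_⟩
    rw [hg'a, hk₂, ← map_add, LinearEquiv.symm_apply_apply, add_smul]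
  have hlt : (SS K g v w).ncard < (SS K g' v v).ncard := by
    exact Set.ncard_lt_ncard ⟨hsub, fun h => hka (h hka2)⟩ (Set.toFinite _)
  have hnv : ¬ Valid K G g' v v := fun h => absurd (hmax _ _ _ h) (not_le.2 hlt)
  have hall : ∀ k : K, k ∈ SS K g' v v := by
    by_contra hcon
    push Not at hcon
    exact hnv ⟨hg'G, hv0, hv0, ⟨k1, hk10, hsub hk1⟩, hcon⟩
  intro k
  obtain ⟨k', hk'⟩ := hall k
  rw [hg'a, LinearEquiv.symm_apply_eq] at hk'
  refine ⟨k' - k, ?_⟩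
  rw [sub_smul, map_sub, ← hk']
  abel

/-- `P ⊄ A`. -/
lemma exists_not_inA [Finite K] {G : Subgroup (V ≃ₗ[F] V)} {g : V ≃ₗ[F] V} {v w : V}
    (hv : Valid K G g v w) : ∃ κ : K, ∀ k : K, κ • w ≠ g (k • v) := by
  obtain ⟨hg, hv0, hw0, -, ⟨ka, hka⟩⟩ := hv
  by_contra hcon
  push Not at hcon
  choose ψ hψ using hcon
  have hinj : Function.Injective ψ := by
    intro a b hab
    have : a • w = b • w := by rw [hψ, hψ, hab]
    exact smul_left_injective K hw0 this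
  obtain ⟨κ, hκ⟩ := (Finite.injective_iff_surjective.1 hinj) ka
  exact hka ⟨κ, by rw [hψ, hκ]⟩

/-- `A = (A ∩ P) + F a₀`. -/
lemma claimD [Finite K] [FiniteDimensional F K] (hr : (finrank F K).Prime) {G : Subgroup (V ≃ₗ[F] V)}
    (hH : HasH K G) {g : V ≃ₗ[F] V} {v w : V} (hv : Valid K G g v w)
    (hmax : ∀ g' v' w', Valid K G g' v' w' → (SS K g' v' w').ncard ≤ (SS K g v w).ncard)
    (ka : K) (hka : ka ∉ SS K g v w) (k : K) :
    ∃ (c : F) (k₁ : K), g (k • v) = c • g (ka • v) + k₁ • w := by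
  have hv' := hv
  obtain ⟨hg, hv0, hw0, ⟨k1, hk10, δ₁, hδ₁⟩, -⟩ := hv
  obtain ⟨κs, hκs⟩ := exists_not_inA hv'
  have hδ₁0 : δ₁ ≠ 0 := by
    rintro rfl
    rw [zero_smul] at hδ₁
    have : k1 • v = 0 := by simpa using hδ₁
    exact (smul_ne_zero hk10 hv0) this
  set a₀ := g (ka • v) with ha₀
  set a₁ := g (k • v) with ha₁
  have ha₀w : ∀ k' : K, a₀ ≠ k' • w := fun k' h => hka ⟨k', h⟩
  by_cases hcase : a₁ ∈ Submodule.span K {w, a₀}
  · obtain ⟨α, γ, hαγ⟩ := Submodule.mem_span_pair.1 hcase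
    let E : Subalgebra F K :=
      { carrier := {γ : K | ∀ δ : K, (∃ k : K, δ • w = g (k • v)) → ∃ k : K, (γ * δ) • w = g (k • v)}
        mul_mem' := by
          intro a b ha hb δ hδ
          have := ha _ (hb δ hδ)
          rwa [← mul_assoc] at this
        add_mem' := by
          intro a b ha hb δ hδ
          obtain ⟨x, hx⟩ := ha δ hδ
          obtain ⟨y, hy⟩ := hb δ hδ
          exact ⟨x + y, by rw [add_mul, add_smul, hx, hy, add_smul, map_add]⟩
        algebraMap_mem' := by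
          intro c δ hδ
          obtain ⟨x, hx⟩ := hδ
          refine ⟨c • x, ?_⟩
          rw [← Algebra.smul_def, smul_assoc, hx, smul_assoc, LinearEquiv.map_smul g c (x • v)] }
    have hγE : γ ∈ E := by
      intro δ hδ
      obtain ⟨η, hηw, hηa⟩ := exists_dual2 ha₀w δ
      have := spade hH hv' hmax η hηw 1 ka hka (by
        obtain ⟨x, hx⟩ := hδ
        exact ⟨x, by rw [← ha₀, hηa, one_smul, hx]⟩) k
      obtain ⟨k₂, hk₂⟩ := this
      refine ⟨k₂, ?_⟩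
      rw [← hk₂, ← ha₁, ← hαγ]
      simp [hηw, hηa]
    have := (Subalgebra.isSimpleOrder_of_finrank_prime F K hr).eq_bot_or_eq_top E
    rcases this with hE | hE
    · rw [hE] at hγE
      obtain ⟨c, hc⟩ := Algebra.mem_bot.1 hγE
      refine ⟨c, α, ?_⟩
      rw [← hαγ, ← hc, algebraMap_smul, add_comm]
    · exfalso
      have h1 : κs / δ₁ ∈ E := by rw [hE]; exact Algebra.mem_top
      obtain ⟨x, hx⟩ := h1 δ₁ ⟨k1, hδ₁.symm⟩
      rw [div_mul_cancel₀ _ hδ₁0] at hx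
      exact hκs x hx
  · exfalso
    have h2 : a₀ ∉ Submodule.span K {w, a₁} := by
      intro h
      obtain ⟨α, β, hαβ⟩ := Submodule.mem_span_pair.1 h
      by_cases hβ : β = 0
      · rw [hβ, zero_smul, add_zero] at hαβ
        exact ha₀w α hαβ.symm
      · apply hcase
        have : a₁ = (-(β⁻¹ * α)) • w + β⁻¹ • a₀ := by
          rw [← hαβ, smul_add, smul_smul, smul_smul, inv_mul_cancel₀ hβ, one_smul, neg_smul]
          abel
        rw [this]
        exact Submodule.add_mem _ (Submodule.smul_mem _ _ (Submodule.subset_span (by simp)))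
          (Submodule.smul_mem _ _ (Submodule.subset_span (by simp)))
    obtain ⟨η, hηw, hηa, hηb⟩ := exists_dual3 h2 hcase δ₁ κs
    obtain ⟨k₂, hk₂⟩ := spade hH hv' hmax η hηw 1 ka hka
      ⟨k1, by rw [← ha₀, hηa, one_smul, hδ₁]⟩ k
    rw [← ha₁, hηb, one_smul] at hk₂
    exact hκs k₂ hk₂

/-- the good configuration: `A = g (K v)`, `P = K w`, `A = D + F a₀`, `P = D + F p₀`, `D = A ∩ P ≠ 0`. -/
structure Cfg (K : Type*) {F V : Type*} [Field F] [Field K] [AddCommGroup V] [Module F V] [Module K V]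
    (G : Subgroup (V ≃ₗ[F] V)) (g : V ≃ₗ[F] V) (v w a₀ p₀ : V) : Prop where
  hg : g ∈ G
  hv : v ≠ 0
  hw : w ≠ 0
  ha : ∃ k : K, a₀ = g (k • v)
  ha' : ∀ k : K, a₀ ≠ k • w
  hp : ∃ k : K, p₀ = k • w
  hp' : ∀ k : K, p₀ ≠ g (k • v)
  hA : ∀ k : K, ∃ (c : F) (k₁ : K), g (k • v) = c • a₀ + k₁ • w
  hP : ∀ k : K, ∃ (c : F) (k₁ : K), k • w = c • p₀ + g (k₁ • v)
  hD : ∃ k k' : K, k ≠ 0 ∧ g (k • v) = k' • w

theorem exists_cfg [Finite K] [FiniteDimensional F K] [FiniteDimensional K V] (hr : (finrank F K).Prime)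
    (hm : 2 ≤ finrank K V) {G : Subgroup (V ≃ₗ[F] V)} (hH : HasH K G) {g : V ≃ₗ[F] V} (hg : g ∈ G)
    (hns : ¬ IsSemi K g) : ∃ g' v w a₀ p₀, Cfg K G g' v w a₀ p₀ := by
  obtain ⟨v₁, w₁, hvw⟩ := exists_valid hm hg hns
  obtain ⟨g, v, w, hv, hmax⟩ := exists_max_valid ⟨g, v₁, w₁, hvw⟩
  have hv' := hv
  obtain ⟨hg, hv0, hw0, ⟨k1, hk10, δ₁, hδ₁⟩, ⟨ka, hka⟩⟩ := hv
  obtain ⟨κs, hκs⟩ := exists_not_inA hv'
  have hδ₁0 : δ₁ ≠ 0 := by
    rintro rfl
    rw [zero_smul] at hδ₁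
    have : k1 • v = 0 := by simpa using hδ₁
    exact (smul_ne_zero hk10 hv0) this
  -- the symmetric configuration
  have hgi : ∀ u, g⁻¹ u = g.symm u := fun u => rfl
  have hκs' : κs ∉ SS K g⁻¹ w v := by
    rintro ⟨k', hk'⟩
    rw [hgi, LinearEquiv.symm_apply_eq] at hk'
    exact hκs k' hk'
  have hvs : Valid K G g⁻¹ w v := by
    refine ⟨G.inv_mem hg, hw0, hv0, ⟨δ₁, hδ₁0, k1, ?_⟩, ⟨κs, hκs'⟩⟩
    rw [hgi, LinearEquiv.symm_apply_eq, hδ₁]
  have hle : (SS K g v w).ncard ≤ (SS K g⁻¹ w v).ncard := by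
    classical
    have hch : ∀ k : SS K g v w, ∃ k' : K, g ((k : K) • v) = k' • w := fun k => k.2
    choose ψ hψ using hch
    let ψ' : K → K := fun k => if h : k ∈ SS K g v w then ψ ⟨k, h⟩ else 0
    apply Set.ncard_le_ncard_of_injOn ψ'
    · intro k hk
      refine ⟨k, ?_⟩
      simp only [ψ', hk, dif_pos]
      rw [hgi, LinearEquiv.symm_apply_eq]
      exact (hψ ⟨k, hk⟩).symm
    · intro a ha b hb hab
      have ha' : a ∈ SS K g v w := ha
      have hb' : b ∈ SS K g v w := hb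
      simp only [ψ', ha', hb', dif_pos] at hab
      have h1 := hψ ⟨a, ha⟩
      have h2 := hψ ⟨b, hb⟩
      rw [hab, ← h2] at h1
      exact smul_left_injective K hv0 (g.injective h1)
  have hmaxs : ∀ g' v' w', Valid K G g' v' w' → (SS K g' v' w').ncard ≤ (SS K g⁻¹ w v).ncard :=
    fun g' v' w' h => (hmax g' v' w' h).trans hle
  refine ⟨g, v, w, g (ka • v), κs • w, hg, hv0, hw0, ⟨ka, rfl⟩, fun k h => hka ⟨k, h⟩, ⟨κs, rfl⟩, hκs,
    fun k => claimD hr hH hv' hmax ka hka k, fun k => ?_, ⟨k1, δ₁, hk10, hδ₁⟩⟩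
  obtain ⟨c, k₁, h⟩ := claimD hr hH hvs hmaxs κs hκs' k
  refine ⟨c, k₁, ?_⟩
  rw [hgi, hgi, LinearEquiv.symm_apply_eq] at h
  rw [h, map_add, map_smul, LinearEquiv.apply_symm_apply]

end Cfsg.Agent.Lib.Helper83.Ext
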