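import Cfsg.Agent.Lib.Helper83.ExtTwo
import Cfsg.Agent.Lib.Helper94.ExtD
import Cfsg.Agent.Lib.Helper64.ExtF

set_option autoImplicit false
set_option linter.unusedSectionVars false

/-! Extension-field subgroups: the main theorem.  A subgroup of `GL_F(V)` containing the `K`-semilinear maps of
determinant one and a map that is not `K`-semilinear contains all `F`-transvections
(`[K:F]` prime, `dim_K V ≥ 2`, `K` finite). -/

namespace Cfsg.Agent.Lib.Helper83.Ext

open Module

variable {F K V : Type*} [Field F] [Field K] [Algebra F K] [AddCommGroup V] [Module F V] [Module K V]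
  [IsScalarTower F K V]

theorem main [Finite K] [FiniteDimensional K V] (hr : (finrank F K).Prime) (hm : 2 ≤ finrank K V)
    {G : Subgroup (V ≃ₗ[F] V)} (hH : HasH K G) {g : V ≃ₗ[F] V} (hg : g ∈ G) (hns : ¬ IsSemi K g) :
    AllTv G := by
  have hfd : FiniteDimensional F K := FiniteDimensional.of_finrank_pos hr.pos
  apply Cfsg.Agent.Lib.Helper94.Ext.allTv_of_hasTv hr.two_le hm hH
  by_cases hm3 : 3 ≤ finrank K V
  · obtain ⟨g', v, w, a₀, p₀, C⟩ := exists_cfg hr hm hH hg hns
    exact hasTv_of_cfg_three hm3 hH C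
  · have hm2 : finrank K V = 2 := by omega
    by_cases h22 : finrank F K = 2 ∧ (2 : F) = 0
    · exact Cfsg.Agent.Lib.Helper64.Ext.hasTv_two_two h22.1 hm2 h22.2 hH hg hns
    · obtain ⟨g', v, w, a₀, p₀, C⟩ := exists_cfg hr hm hH hg hns
      exact hasTv_of_cfg_two hr.two_le h22 hm2 hH C

end Cfsg.Agent.Lib.Helper83.Ext
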