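import Cfsg.Agent.Lib.Helper83.ExtCore

set_option autoImplicit false
set_option linter.unusedSectionVars false
set_option linter.unusedVariables false

/-! Extension-field subgroups: a transvection from a good configuration, `dim_K V ≥ 3`. -/

namespace Cfsg.Agent.Lib.Helper83.Ext

open Module

variable {F K V : Type*} [Field F] [Field K] [Algebra F K] [AddCommGroup V] [Module F V] [Module K V]
  [IsScalarTower F K V]

/-- a rank one square-zero perturbation of the identity in `G` is a transvection. -/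
lemma hasTv_of_rank_one {G : Subgroup (V ≃ₗ[F] V)} (Z : Module.End F V) (c : V) (hc : c ≠ 0)
    (hZ : ∀ u, ∃ a : F, Z u = a • c) (hZc : Z c = 0) (hne : Z ≠ 0) (h : 1 + Z ∈ MS G) : HasTv G := by
  have hcb : c ∉ (⊥ : Submodule F V) := by simpa using hc
  obtain ⟨δ, hδc, -⟩ := Submodule.exists_le_ker_of_notMem hcb
  set f : Dual F V := (δ c)⁻¹ • (δ ∘ₗ Z) with hf
  have hfu : ∀ u, Z u = f u • c := by
    intro u
    obtain ⟨a, ha⟩ := hZ u
    rw [hf]
    simp only [LinearMap.smul_apply, LinearMap.comp_apply, ha, map_smul, smul_eq_mul]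
    congr 1
    field_simp
  have hZf : Z = f.smulRight c := by
    ext u
    rw [hfu]
    simp
  have hfc : f c = 0 := by
    have := hfu c
    rw [hZc] at this
    exact (smul_eq_zero.1 this.symm).resolve_right hc
  refine ⟨f, c, hfc, ?_, hc, ?_⟩
  · rintro h0
    apply hne
    rw [hZf, h0]
    ext u
    simp
  · rw [MS_tv_iff, ← hZf]
    exact h

/-- the conjugated root element `g ∘ (η(·) t) ∘ g⁻¹`. -/
noncomputable def cj (g : V ≃ₗ[F] V) (η : Dual K V) (t : V) : Module.End F V :=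
  (g : V →ₗ[F] V) ∘ₗ ((η.smulRight t).restrictScalars F : V →ₗ[F] V) ∘ₗ (g.symm : V →ₗ[F] V)

@[simp] lemma cj_apply (g : V ≃ₗ[F] V) (η : Dual K V) (t u : V) :
    cj g η t u = g (η (g.symm u) • t) := by
  simp [cj]

lemma cj_mem [FiniteDimensional F K] {G : Subgroup (V ≃ₗ[F] V)} (hH : HasH K G) {g : V ≃ₗ[F] V} (hg : g ∈ G)
    {η : Dual K V} {t : V} (h : η t = 0) : 1 + cj g η t ∈ MS G := by
  have h1 := MS_conj hg (MS_of_mem (kt_mem hH h))
  rw [kt_coe] at h1
  convert h1 using 1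
  ext u
  simp

lemma rt_mem [FiniteDimensional F K] {G : Subgroup (V ≃ₗ[F] V)} (hH : HasH K G)
    {η : Dual K V} {t : V} (h : η t = 0) :
    1 + ((η.smulRight t).restrictScalars F : V →ₗ[F] V) ∈ MS G := by
  have h1 := MS_of_mem (kt_mem hH h)
  rwa [kt_coe] at h1

theorem hasTv_of_cfg_three [Finite K] [FiniteDimensional F K] [FiniteDimensional K V] (hm : 3 ≤ finrank K V)
    {G : Subgroup (V ≃ₗ[F] V)} (hH : HasH K G) {g : V ≃ₗ[F] V} {v w a₀ p₀ : V}
    (C : Cfg K G g v w a₀ p₀) : HasTv G := by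
  -- η₁ kills w and a₀
  obtain ⟨u₁, hu₁⟩ : ∃ u₁ : V, u₁ ∉ Submodule.span K {w, a₀} := by
    by_contra hcon
    push Not at hcon
    have htop : Submodule.span K {w, a₀} = ⊤ := by
      rw [eq_top_iff]
      intro x _
      exact hcon x
    classical
    have h1 : finrank K (Submodule.span K ({w, a₀} : Set V)) ≤ 2 := by
      have := finrank_span_finset_le_card (R := K) ({w, a₀} : Finset V)
      have h2 : ({w, a₀} : Finset V).card ≤ 2 := Finset.card_le_two
      have h3 : (({w, a₀} : Finset V) : Set V) = {w, a₀} := by simp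
      rw [Set.finrank, h3] at this
      omega
    rw [htop, finrank_top] at h1
    omega
  obtain ⟨η₀, hη₀u, hη₀⟩ := Submodule.exists_le_ker_of_notMem hu₁
  set η₁ : Dual K V := (η₀ u₁)⁻¹ • η₀ with hη₁
  have hη₁w : η₁ w = 0 := by
    have : η₀ w = 0 := hη₀ (Submodule.subset_span (by simp))
    simp [hη₁, this]
  have hη₁a : η₁ a₀ = 0 := by
    have : η₀ a₀ = 0 := hη₀ (Submodule.subset_span (by simp))
    simp [hη₁, this]
  have hη₁u : η₁ u₁ = 1 := by simp [hη₁, hη₀u]
  have hη₁A : ∀ k : K, η₁ (g (k • v)) = 0 := by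
    intro k
    obtain ⟨c, k₁, h⟩ := C.hA k
    rw [h, map_add, ← algebraMap_smul K c a₀, LinearMap.map_smul, LinearMap.map_smul, hη₁a, hη₁w]
    simp
  -- η' kills v, is one at g⁻¹ p₀
  have hgp : ∀ k : K, g.symm p₀ ≠ k • v := by
    intro k h
    apply C.hp' k
    rw [← h, LinearEquiv.apply_symm_apply]
  obtain ⟨η', hη'v, hη'p⟩ := exists_dual2 hgp 1
  set M₁ : Module.End F V := ((η₁.smulRight w).restrictScalars F : V →ₗ[F] V) with hM₁
  set N : Module.End F V := cj g η' v with hN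
  have hM₁G : 1 + M₁ ∈ MS G := rt_mem hH hη₁w
  have hNG : 1 + N ∈ MS G := cj_mem hH C.hg hη'v
  have hM₁a : ∀ u, M₁ u = η₁ u • w := fun u => by simp [hM₁]
  have hNa : ∀ u, N u = g (η' (g.symm u) • v) := fun u => by simp [hN]
  have hMM : M₁ * M₁ = 0 := by
    ext u
    simp [hM₁a, hη₁w]
  have hNN : N * N = 0 := by
    ext u
    simp [hNa, hη'v]
  have hMN : M₁ * N = 0 := by
    ext u
    simp only [Module.End.mul_apply, hM₁a, hNa, hη₁A]
    simp
  have hG := MS_comm hNG hM₁G hNN hMM hMN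
  have hNw : ∀ k : K, ∃ c : F, N (k • w) = c • g v := by
    intro k
    obtain ⟨c, k₁, h⟩ := C.hP k
    refine ⟨c, ?_⟩
    rw [h, map_add, map_smul, hNa, hNa, hη'p, LinearEquiv.symm_apply_apply]
    simp [hη'v]
  have hgv : g v ≠ 0 := by simpa using C.hv
  apply hasTv_of_rank_one (N * M₁) (g v) hgv _ _ _ hG
  · intro u
    rw [Module.End.mul_apply, hM₁a]
    exact hNw _
  · rw [Module.End.mul_apply, hM₁a]
    have := hη₁A 1
    rw [one_smul] at this
    rw [this]
    simp
  · intro h0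
    obtain ⟨κ₀, hκ₀⟩ := C.hp
    have := LinearMap.congr_fun h0 (κ₀ • u₁)
    rw [Module.End.mul_apply, hM₁a, LinearMap.map_smul η₁, hη₁u, smul_eq_mul, mul_one, ← hκ₀, hNa, hη'p,
      one_smul] at this
    exact hgv this

end Cfsg.Agent.Lib.Helper83.Ext
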