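import Cfsg.Agent.Lib.Helper83.ExtThree
import Cfsg.Agent.Lib.Helper94.ExtA
import Cfsg.Agent.Lib.Helper64.ExtL

set_option autoImplicit false
set_option linter.unusedSectionVars false
set_option linter.unusedVariables false

/-! Extension-field subgroups: a transvection from a good configuration, `dim_K V = 2`,
not (`[K:F] = 2` and characteristic two). -/

namespace Cfsg.Agent.Lib.Helper83.Ext

open Module

variable {F K V : Type*} [Field F] [Field K] [Algebra F K] [AddCommGroup V] [Module F V] [Module K V]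
  [IsScalarTower F K V]

/-- `u ↦ κ (η₂ u) • w`. -/
noncomputable def e12 (w : V) (η₂ : Dual K V) (κ : Module.End F K) : Module.End F V :=
  ((LinearMap.toSpanSingleton K V w).restrictScalars F : K →ₗ[F] V) ∘ₗ κ ∘ₗ
    (η₂.restrictScalars F : V →ₗ[F] K)

@[simp] lemma e12_apply (w : V) (η₂ : Dual K V) (κ : Module.End F K) (u : V) :
    e12 w η₂ κ u = κ (η₂ u) • w := by
  simp [e12]

/-- the additive group of multipliers. -/
def KK (G : Subgroup (V ≃ₗ[F] V)) (w : V) (η₂ : Dual K V) (h : η₂ w = 0) :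
    AddSubgroup (Module.End F K) where
  carrier := {κ | 1 + e12 w η₂ κ ∈ MS G}
  zero_mem' := by
    have : e12 w η₂ (0 : Module.End F K) = 0 := by ext u; simp
    show 1 + e12 w η₂ 0 ∈ MS G
    rw [this, add_zero]
    exact MS_one
  add_mem' := by
    intro a b ha hb
    have h1 := MS_mul ha hb
    have : (1 + e12 w η₂ a) * (1 + e12 w η₂ b) = 1 + e12 w η₂ (a + b) := by
      ext u
      simp [h, add_smul]
      abel
    rw [this] at h1
    exact h1
  neg_mem' := by
    intro a ha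
    have h0 : e12 w η₂ a * e12 w η₂ a = 0 := by
      ext u
      simp [h]
    have h1 := MS_sub_of_sq ha h0
    have : 1 - e12 w η₂ a = 1 + e12 w η₂ (-a) := by
      ext u
      simp [sub_eq_add_neg]
    rw [this] at h1
    exact h1

lemma mem_KK {G : Subgroup (V ≃ₗ[F] V)} {w : V} {η₂ : Dual K V} {h : η₂ w = 0} {κ : Module.End F K} :
    κ ∈ KK G w η₂ h ↔ 1 + e12 w η₂ κ ∈ MS G := Iff.rfl

lemma KK_conj {G : Subgroup (V ≃ₗ[F] V)} {w : V} {η₂ : Dual K V} {h : η₂ w = 0}
    {a b : Module.End F V} (ha : a ∈ MS G) (hb : b ∈ MS G) (hab : a * b = 1) {u w' : Module.End F K}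
    (h1 : ∀ x : K, a (x • w) = (u x) • w) (h2 : ∀ z, η₂ (b z) = w' (η₂ z)) {κ : Module.End F K}
    (hκ : κ ∈ KK G w η₂ h) : u * κ * w' ∈ KK G w η₂ h := by
  rw [mem_KK] at hκ ⊢
  have h3 := MS_mul (MS_mul ha hκ) hb
  have : a * (1 + e12 w η₂ κ) * b = 1 + e12 w η₂ (u * κ * w') := by
    rw [mul_add, mul_one, add_mul, hab]
    congr 1
    ext z
    simp [h1, h2]
  rwa [this] at h3

/-- left multiplication action of `K` on `End_F K`. -/
noncomputable def rhoL (F K : Type*) [Field F] [Field K] [Algebra F K] :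
    K →+* AddMonoid.End (Module.End F K) where
  toFun k := AddMonoidHom.mulLeft (LinearMap.mulLeft F k)
  map_one' := by
    ext κ x
    show (LinearMap.mulLeft F (1 : K) * κ) x = κ x
    simp
  map_mul' a b := by
    ext κ x
    show (LinearMap.mulLeft F (a * b) * κ) x = (LinearMap.mulLeft F a * (LinearMap.mulLeft F b * κ)) x
    simp [mul_assoc]
  map_zero' := by
    ext κ x
    show (LinearMap.mulLeft F (0 : K) * κ) x = 0
    simp
  map_add' a b := by
    ext κ x
    show (LinearMap.mulLeft F (a + b) * κ) x = (LinearMap.mulLeft F a * κ + LinearMap.mulLeft F b * κ) x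
    simp [add_mul]

/-- right multiplication action of `K` on `End_F K`. -/
noncomputable def rhoR (F K : Type*) [Field F] [Field K] [Algebra F K] :
    K →+* AddMonoid.End (Module.End F K) where
  toFun k := AddMonoidHom.mulRight (LinearMap.mulLeft F k)
  map_one' := by
    ext κ x
    show (κ * LinearMap.mulLeft F (1 : K)) x = κ x
    simp
  map_mul' a b := by
    ext κ x
    show (κ * LinearMap.mulLeft F (a * b)) x = ((κ * LinearMap.mulLeft F b) * LinearMap.mulLeft F a) x
    simp [mul_assoc, mul_left_comm]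
  map_zero' := by
    ext κ x
    show (κ * LinearMap.mulLeft F (0 : K)) x = 0
    simp
  map_add' a b := by
    ext κ x
    show (κ * LinearMap.mulLeft F (a + b)) x = (κ * LinearMap.mulLeft F a + κ * LinearMap.mulLeft F b) x
    simp [add_mul]

lemma decomp_two [FiniteDimensional K V] (hm : finrank K V = 2) {w a₀ : V} {η₁ η₂ : Dual K V}
    (h11 : η₁ w = 1) (h12 : η₁ a₀ = 0) (h21 : η₂ w = 0) (h22 : η₂ a₀ = 1) (u : V) :
    u = η₁ u • w + η₂ u • a₀ := by
  set φ : V →ₗ[K] K × K := η₁.prod η₂ with hφ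
  have hsurj : Function.Surjective φ := by
    rintro ⟨x, y⟩
    refine ⟨x • w + y • a₀, ?_⟩
    simp [hφ, h11, h12, h21, h22]
  have hfr : finrank K V = finrank K (K × K) := by simp [hm]
  have hinj := (LinearMap.injective_iff_surjective_of_finrank_eq_finrank hfr).2 hsurj
  apply hinj
  simp [hφ, h11, h12, h21, h22]

theorem hasTv_of_cfg_two [Finite K] [FiniteDimensional F K] [FiniteDimensional K V]
    (hr : 2 ≤ finrank F K) (hne : ¬ (finrank F K = 2 ∧ (2 : F) = 0)) (hm : finrank K V = 2)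
    {G : Subgroup (V ≃ₗ[F] V)} (hH : HasH K G) {g : V ≃ₗ[F] V} {v w a₀ p₀ : V}
    (C : Cfg K G g v w a₀ p₀) : HasTv G := by
  obtain ⟨η₂, h21, h22⟩ := exists_dual2 C.ha' 1
  have hwa : ∀ k : K, w ≠ k • a₀ := by
    intro k hk
    by_cases hk0 : k = 0
    · rw [hk0, zero_smul] at hk
      exact C.hw hk
    · apply C.ha' k⁻¹
      rw [hk, smul_smul, inv_mul_cancel₀ hk0, one_smul]
  obtain ⟨η₁, h12, h11⟩ := exists_dual2 hwa 1
  have hdec := decomp_two hm h11 h12 h21 h22
  set 𝒦 := KK G w η₂ h21 with h𝒦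
  -- K ⊆ 𝒦
  have hK1 : ∀ l : K, LinearMap.mulLeft F l ∈ 𝒦 := by
    intro l
    rw [h𝒦, mem_KK]
    have hl : η₂ (l • w) = 0 := by simp [h21]
    have := rt_mem hH hl
    convert this using 2
    ext u
    simp [smul_smul, mul_comm]
  -- left multiplications
  have hl0 : ∀ β : K, β ≠ 0 → ∀ κ ∈ 𝒦, rhoL F K (β ^ (Nat.card F - 1)) κ ∈ 𝒦 := by
    intro β hβ κ hκ
    set a := β ^ (Nat.card F - 1) with ha
    have ha0 : a ≠ 0 := pow_ne_zero _ hβ
    have e1 : 1 + η₁ ((a - 1) • w) = a := by simp [h11]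
    have hu : IsUnit (1 + η₁ ((a - 1) • w)) := by rw [e1]; exact ha0.isUnit
    have hd : kd F hu ∈ G := kd_mem hH hu (by
      rw [e1]; exact Cfsg.Agent.Lib.Helper94.Ext.norm_pow_card_sub_one β hβ)
    have := KK_conj (h := h21) (a := ((kd F hu : V ≃ₗ[F] V) : V →ₗ[F] V))
      (b := (((kd F hu)⁻¹ : V ≃ₗ[F] V) : V →ₗ[F] V)) (MS_of_mem hd) (MS_of_mem (G.inv_mem hd))
      (by ext z; exact (kd F hu).apply_symm_apply z) (u := LinearMap.mulLeft F a) (w' := 1)
      (by
        intro x
        simp only [LinearEquiv.coe_coe, kd_apply, map_smul, h11, smul_eq_mul, mul_one,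
          LinearMap.mulLeft_apply, smul_smul, ← add_smul]
        congr 1
        ring)
      (by
        intro z
        have h3 : ∀ z', η₂ (kd F hu z') = η₂ z' := by
          intro z'
          simp [h21]
        have := h3 ((kd F hu).symm z)
        rw [LinearEquiv.apply_symm_apply] at this
        exact this.symm) hκ
    rw [mul_one] at this
    exact this
  have hl : ∀ a : K, ∀ κ ∈ 𝒦, LinearMap.mulLeft F a * κ ∈ 𝒦 := fun a κ hκ =>
    Cfsg.Agent.Lib.Helper94.Ext.act_mem (F := F) hr (rhoL F K) 𝒦 hl0 a κ hκ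
  -- right multiplications
  have hr0 : ∀ β : K, β ≠ 0 → ∀ κ ∈ 𝒦, rhoR F K (β ^ (Nat.card F - 1)) κ ∈ 𝒦 := by
    intro β hβ κ hκ
    set a := β ^ (Nat.card F - 1) with ha
    have ha0 : a ≠ 0 := pow_ne_zero _ hβ
    have e1 : 1 + η₂ ((a - 1) • a₀) = a := by simp [h22]
    have hu : IsUnit (1 + η₂ ((a - 1) • a₀)) := by rw [e1]; exact ha0.isUnit
    have hd : kd F hu ∈ G := kd_mem hH hu (by
      rw [e1]; exact Cfsg.Agent.Lib.Helper94.Ext.norm_pow_card_sub_one β hβ)
    have := KK_conj (h := h21) (a := (((kd F hu)⁻¹ : V ≃ₗ[F] V) : V →ₗ[F] V))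
      (b := ((kd F hu : V ≃ₗ[F] V) : V →ₗ[F] V)) (MS_of_mem (G.inv_mem hd)) (MS_of_mem hd)
      (by ext z; exact (kd F hu).symm_apply_apply z) (u := 1) (w' := LinearMap.mulLeft F a)
      (by
        intro x
        have h3 : kd F hu (x • w) = x • w := by simp [h21]
        show (kd F hu).symm (x • w) = _
        rw [LinearEquiv.symm_apply_eq]
        exact h3.symm)
      (by
        intro z
        simp only [LinearEquiv.coe_coe, kd_apply, map_add, map_smul, h22, smul_eq_mul, mul_one,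
          LinearMap.mulLeft_apply]
        ring) hκ
    rw [one_mul] at this
    exact this
  have hrr : ∀ a : K, ∀ κ ∈ 𝒦, κ * LinearMap.mulLeft F a ∈ 𝒦 := fun a κ hκ =>
    Cfsg.Agent.Lib.Helper94.Ext.act_mem (F := F) hr (rhoR F K) 𝒦 hr0 a κ hκ
  -- the conjugated root element stabilising `P`
  obtain ⟨k, n, hk0, hkn⟩ := C.hD
  have hn0 : n ≠ 0 := by
    rintro rfl
    rw [zero_smul] at hkn
    have : k • v = 0 := by simpa using hkn
    exact (smul_ne_zero hk0 C.hv) this
  have hnw : n • w ≠ 0 := smul_ne_zero hn0 C.hw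
  have hgp : ∀ k : K, g.symm p₀ ≠ k • v := by
    intro k h
    apply C.hp' k
    rw [← h, LinearEquiv.apply_symm_apply]
  obtain ⟨η', hη'v, hη'p⟩ := exists_dual2 hgp 1
  have hη'kv : η' (k • v) = 0 := by simp [hη'v]
  set N : Module.End F V := cj g η' (k • v) with hN
  have hNG : 1 + N ∈ MS G := cj_mem hH C.hg hη'kv
  have hNa : ∀ u, N u = g (η' (g.symm u) • k • v) := fun u => by simp [hN]
  have hNN : N * N = 0 := by
    ext u
    simp [hNa, hη'v]
  have hNA : ∀ k₂ : K, N (g (k₂ • v)) = 0 := by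
    intro k₂
    simp [hNa, hη'v]
  have hNp : N p₀ = n • w := by rw [hNa, hη'p, one_smul, hkn]
  -- π
  have hcb : n • w ∉ (⊥ : Submodule F V) := by simpa using hnw
  obtain ⟨δ, hδc, -⟩ := Submodule.exists_le_ker_of_notMem hcb
  set π : Dual F K := (δ (n • w))⁻¹ • (δ ∘ₗ N ∘ₗ
    ((LinearMap.toSpanSingleton K V w).restrictScalars F : K →ₗ[F] V)) with hπdef
  have hπ : ∀ x : K, N (x • w) = π x • n • w := by
    intro x
    obtain ⟨c, k₁, h⟩ := C.hP x
    have h1 : N (x • w) = c • n • w := by rw [h, map_add, map_smul, hNA, hNp, add_zero]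
    have h2 : π x = c := by
      simp only [hπdef, LinearMap.smul_apply, LinearMap.comp_apply, LinearMap.coe_restrictScalars,
        LinearMap.toSpanSingleton_apply, h1, map_smul, smul_eq_mul]
      field_simp
    rw [h1, h2]
  -- ν
  have h1b : (1 : K) ∉ (⊥ : Submodule F K) := by simp
  obtain ⟨δ₀, hδ₀1, -⟩ := Submodule.exists_le_ker_of_notMem h1b
  set δ' : Dual F K := (δ₀ 1)⁻¹ • δ₀ with hδ'
  have hδ'1 : δ' 1 = 1 := by simp [hδ', hδ₀1]
  set ν : Dual F K := δ' ∘ₗ (η₂.restrictScalars F : V →ₗ[F] K) ∘ₗ N ∘ₗ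
    ((LinearMap.toSpanSingleton K V a₀).restrictScalars F : K →ₗ[F] V) with hνdef
  have hNim : ∀ z, ∃ c : F, η₂ (N z) = algebraMap F K c := by
    intro z
    obtain ⟨c, k₁, h⟩ := C.hA (η' (g.symm z) * k)
    refine ⟨c, ?_⟩
    rw [hNa, smul_smul, h, map_add, ← algebraMap_smul K c a₀, LinearMap.map_smul, LinearMap.map_smul,
      h21, h22]
    simp
  have hν0 : ∀ x : K, η₂ (N (x • a₀)) = algebraMap F K (ν x) := by
    intro x
    obtain ⟨c, hc⟩ := hNim (x • a₀)
    have : ν x = c := by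
      simp only [hνdef, LinearMap.comp_apply, LinearMap.coe_restrictScalars,
        LinearMap.toSpanSingleton_apply, hc]
      rw [Algebra.algebraMap_eq_smul_one, map_smul, hδ'1]
      simp
    rw [this, hc]
  have hν : ∀ z, η₂ (N z) = algebraMap F K (ν (η₂ z)) := by
    intro z
    conv_lhs => rw [hdec z]
    rw [map_add, map_add, hπ, hν0]
    have : η₂ (π (η₁ z) • n • w) = 0 := by
      rw [← algebraMap_smul K (π (η₁ z)) (n • w), LinearMap.map_smul, LinearMap.map_smul, h21]
      simp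
    rw [this, zero_add]
  have hπn : π n = 0 := by
    have h1 := hπ n
    rw [← hkn, hNA] at h1
    rw [hkn] at h1
    exact (smul_eq_zero.1 h1.symm).resolve_right hnw
  have hν1 : ν 1 = 0 := by
    have h1 := hν0 1
    obtain ⟨ka, hka⟩ := C.ha
    rw [one_smul, hka, hNA, map_zero] at h1
    exact (map_eq_zero_iff _ (algebraMap F K).injective).1 h1.symm
  have hπne : π ≠ 0 := by
    intro h0
    obtain ⟨κ₀, hκ₀⟩ := C.hp
    have h1 := hπ κ₀
    rw [← hκ₀, hNp, h0] at h1
    simp at h1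
    exact h1.elim hn0 C.hw
  have hc : ∀ κ ∈ 𝒦, (1 + π.smulRight n) * κ * (1 - ν.smulRight 1) ∈ 𝒦 := by
    intro κ hκ
    apply KK_conj (h := h21) hNG (MS_sub_of_sq hNG hNN) _ _ _ hκ
    · have : (1 + N) * (1 - N) = 1 - N * N := by noncomm_ring
      rw [this, hNN, sub_zero]
    · intro x
      simp only [LinearMap.add_apply, Module.End.one_apply, hπ, LinearMap.smulRight_apply, add_smul,
        smul_assoc]
    · intro z
      simp only [LinearMap.sub_apply, Module.End.one_apply, map_sub, hν, LinearMap.smulRight_apply,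
        Algebra.algebraMap_eq_smul_one]
  have hall := Cfsg.Agent.Lib.Helper64.Ext.KK_top hr hne 𝒦 hK1 hl hrr n π ν hn0 hπne hπn hν1 hc
  have hfin := hall (δ'.smulRight 1)
  rw [h𝒦, mem_KK] at hfin
  apply hasTv_of_rank_one _ w C.hw _ _ _ hfin
  · intro u
    exact ⟨δ' (η₂ u), by simp⟩
  · simp [h21]
  · intro h0
    have := LinearMap.congr_fun h0 a₀
    simp [h22, hδ'1] at this
    exact C.hw this

end Cfsg.Agent.Lib.Helper83.Ext
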