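import Mathlib
import Cfsg.Agent.Lib.Helper83.McBase
import Cfsg.Agent.Lib.Helper83.McTv

set_option autoImplicit false
set_option linter.unusedSectionVars false

/-! Pieces G3b, G3c, G3d of the S5075 farm: the system of a component. -/

namespace Cfsg.Agent.Lib.Helper83.Mc

open Module

variable {p : ℕ} [Fact p.Prime] {V : Type*} [AddCommGroup V] [Module (ZMod p) V]
variable {H : Subgroup (V ≃ₗ[ZMod p] V)} {C : Set (V × Dual (ZMod p) V)}

theorem comp_qirl (hH : Good H) (hC : IsComp H C) (W : Submodule (ZMod p) ↥(cM C))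
    (hW : ∀ w χ, cA C w χ → w ∈ W ∨ ∀ x ∈ W, cB C χ x = 0) :
    W = ⊤ ∨ ∀ x ∈ W, ∀ χ, cB C χ x = 0 := by
  set W' : Submodule (ZMod p) V := W.map (cM C).subtype with hW'
  have memW' : ∀ v, v ∈ W' ↔ ∃ h : v ∈ cM C, (⟨v, h⟩ : ↥(cM C)) ∈ W := by
    intro v
    rw [hW', Submodule.mem_map]
    constructor
    · rintro ⟨y, hy, rfl⟩; exact ⟨y.2, hy⟩
    · rintro ⟨h, hv⟩; exact ⟨⟨v, h⟩, hv, rfl⟩
  have hWC : ∀ y ∈ C, y.1 ∈ W' ∨ ∀ v ∈ W', y.2 v = 0 := by
    intro y hy
    rcases hW ⟨y.1, fst_mem_cM hy⟩ ⟨y.2, snd_mem_cN hy⟩ (tv_of_mem hC.sub hy) with h | h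
    · exact Or.inl ((memW' _).mpr ⟨_, h⟩)
    · right
      intro v hv
      obtain ⟨h1, h2⟩ := (memW' v).mp hv
      exact h _ h2
  have hinv : Inv H W' := by
    intro y hy
    by_cases hyC : y ∈ C
    · exact hWC y hyC
    · right
      intro v hv
      exact (perp_of_notMem hC hy hyC).1 v ((memW' v).mp hv).1
  by_cases hS : ∃ x ∈ C, x.1 ∈ W'
  · left
    have hSC : {x ∈ C | x.1 ∈ W'} = C := by
      apply hC.conn _ (Set.sep_subset _ _)
      · obtain ⟨x, hx, hx'⟩ := hS; exact ⟨x, hx, hx'⟩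
      · rintro x ⟨hx, hxW⟩ y hy hadj
        refine ⟨hy, ?_⟩
        by_contra hyW
        have hy2 := (hWC y hy).resolve_left hyW
        have h1 : y.2 x.1 = 0 := hy2 _ hxW
        have h2 : x.2 y.1 ≠ 0 := by
          rcases hadj with h | h
          · exact h
          · exact absurd h1 h
        have ht := (Tv.club (tv_of_mem hC.sub hx) h2 (tv_of_mem hC.sub hy) h1).mono (cK_le hC.sub)
        rcases hH.no_central hinv ht hxW hy2 with h | h
        · exact (hC.sub hx).1 h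
        · exact (hC.sub hy).2.1 h
    have hle : cM C ≤ W' := by
      rw [cM, Submodule.span_le]
      rintro _ ⟨x, hx, rfl⟩
      have : x ∈ {x ∈ C | x.1 ∈ W'} := by rw [hSC]; exact hx
      exact this.2
    rw [eq_top_iff]
    intro x _
    obtain ⟨_, h⟩ := (memW' x.1).mp (hle x.2)
    exact h
  · right
    push Not at hS
    intro x hx χ
    have hxW : (x : V) ∈ W' := (memW' _).mpr ⟨x.2, hx⟩
    have : ∀ φ ∈ cN C, φ (x : V) = 0 := by
      intro φ hφ
      induction hφ using Submodule.span_induction with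
      | mem v hv =>
        obtain ⟨y, hy, rfl⟩ := hv
        exact (hWC y hy).resolve_left (hS y hy) _ hxW
      | zero => simp
      | add a b _ _ ha hb => simp [ha, hb]
      | smul c a _ ha => simp [ha]
    exact this χ.1 χ.2

theorem comp_qirr (hH : Good H) (hC : IsComp H C) (X : Submodule (ZMod p) ↥(cN C))
    (hX : ∀ w χ, cA C w χ → χ ∈ X ∨ ∀ ψ ∈ X, cB C ψ w = 0) :
    X = ⊤ ∨ ∀ ψ ∈ X, ∀ w, cB C ψ w = 0 := by
  set X' : Submodule (ZMod p) (Dual (ZMod p) V) := X.map (cN C).subtype with hX'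
  have memX' : ∀ v, v ∈ X' ↔ ∃ h : v ∈ cN C, (⟨v, h⟩ : ↥(cN C)) ∈ X := by
    intro v
    rw [hX', Submodule.mem_map]
    constructor
    · rintro ⟨y, hy, rfl⟩; exact ⟨y.2, hy⟩
    · rintro ⟨h, hv⟩; exact ⟨⟨v, h⟩, hv, rfl⟩
  set W : Submodule (ZMod p) V := X'.dualCoannihilator with hWdef
  have memW : ∀ v, v ∈ W ↔ ∀ ψ ∈ X', ψ v = 0 := fun v => Submodule.mem_dualCoannihilator v
  have hXC : ∀ y ∈ C, y.2 ∈ X' ∨ ∀ ψ ∈ X', ψ y.1 = 0 := by
    intro y hy
    rcases hX ⟨y.1, fst_mem_cM hy⟩ ⟨y.2, snd_mem_cN hy⟩ (tv_of_mem hC.sub hy) with h | h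
    · exact Or.inl ((memX' _).mpr ⟨_, h⟩)
    · right
      intro v hv
      obtain ⟨h1, h2⟩ := (memX' v).mp hv
      exact h _ h2
  have hinv : Inv H W := by
    intro y hy
    by_cases hyC : y ∈ C
    · rcases hXC y hyC with h | h
      · right
        intro v hv
        exact (memW v).mp hv _ h
      · left
        exact (memW _).mpr h
    · left
      rw [memW]
      intro ψ hψ
      exact (perp_of_notMem hC hy hyC).2 ψ ((memX' ψ).mp hψ).1
  by_cases hS : ∃ x ∈ C, x.2 ∈ X'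
  · left
    have hSC : {x ∈ C | x.2 ∈ X'} = C := by
      apply hC.conn _ (Set.sep_subset _ _)
      · obtain ⟨x, hx, hx'⟩ := hS; exact ⟨x, hx, hx'⟩
      · rintro x ⟨hx, hxX⟩ y hy hadj
        refine ⟨hy, ?_⟩
        by_contra hyX
        have hy2 := (hXC y hy).resolve_left hyX
        have h1 : x.2 y.1 = 0 := hy2 _ hxX
        have h2 : y.2 x.1 ≠ 0 := by
          rcases hadj with h | h
          · exact absurd h1 h
          · exact h
        have ht := (Tv.club (tv_of_mem hC.sub hy) h2 (tv_of_mem hC.sub hx) h1).mono (cK_le hC.sub)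
        rcases hH.no_central hinv ht ((memW _).mpr hy2) (fun v hv => (memW v).mp hv _ hxX) with h | h
        · exact (hC.sub hy).1 h
        · exact (hC.sub hx).2.1 h
    have hle : cN C ≤ X' := by
      rw [cN, Submodule.span_le]
      rintro _ ⟨x, hx, rfl⟩
      have : x ∈ {x ∈ C | x.2 ∈ X'} := by rw [hSC]; exact hx
      exact this.2
    rw [eq_top_iff]
    intro x _
    obtain ⟨_, h⟩ := (memX' x.1).mp (hle x.2)
    exact h
  · right
    push Not at hS
    intro ψ hψ w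
    have hψX : (ψ : Dual (ZMod p) V) ∈ X' := (memX' _).mpr ⟨ψ.2, hψ⟩
    have : ∀ v ∈ cM C, (ψ : Dual (ZMod p) V) v = 0 := by
      intro v hv
      induction hv using Submodule.span_induction with
      | mem v hv =>
        obtain ⟨y, hy, rfl⟩ := hv
        exact (hXC y hy).resolve_left (hS y hy) _ hψX
      | zero => simp
      | add a b _ _ ha hb => simp [ha, hb]
      | smul c a _ ha => simp [ha]
    exact this w.1 w.2

/-- the radical of a component -/
def cD (C : Set (V × Dual (ZMod p) V)) : Submodule (ZMod p) V := cM C ⊓ (cN C).dualCoannihilator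

lemma mem_cD {v : V} : v ∈ cD C ↔ v ∈ cM C ∧ ∀ φ ∈ cN C, φ v = 0 := by
  rw [cD, Submodule.mem_inf, Submodule.mem_dualCoannihilator]

lemma inv_cD (hC : IsComp H C) : Inv H (cD C) := by
  intro y hy
  right
  intro v hv
  by_cases hyC : y ∈ C
  · exact (mem_cD.mp hv).2 _ (snd_mem_cN hyC)
  · exact (perp_of_notMem hC hy hyC).1 v (mem_cD.mp hv).1

theorem comp_r1l (hH : Good H) (hC : IsComp H C) (u : ↥(cM C)) (φ : ↥(cN C)) (h : cA C u φ)
    (hφ : φ ≠ 0) (hu : ∀ χ, cB C χ u = 0) : u = 0 := by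
  have hD : (u : V) ∈ cD C := mem_cD.mpr ⟨u.2, fun χ hχ => hu ⟨χ, hχ⟩⟩
  rcases hH.no_central (inv_cD hC) (Tv.mono (cK_le hC.sub) h) hD
    (fun v hv => (mem_cD.mp hv).2 _ φ.2) with h1 | h1
  · exact Subtype.ext h1
  · exact absurd (Subtype.ext h1) hφ

theorem comp_r1r (hH : Good H) (hC : IsComp H C) (u : ↥(cM C)) (φ : ↥(cN C)) (h : cA C u φ)
    (hu : u ≠ 0) (hφ : ∀ w, cB C φ w = 0) : φ = 0 := by
  rcases hH.no_central (inv_cM hC) (Tv.mono (cK_le hC.sub) h) u.2
    (fun v hv => hφ ⟨v, hv⟩) with h1 | h1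
  · exact absurd (Subtype.ext h1) hu
  · exact Subtype.ext h1

theorem comp_l1 (hH : Good H) (hC : IsComp H C) (u : ↥(cM C)) (φ : ↥(cN C)) (u' : ↥(cM C))
    (φ' : ↥(cN C)) (h : cA C u φ) (h' : cA C u' φ') (hu : u ≠ 0) (hφ : φ ≠ 0)
    (h1 : ∀ χ, cB C χ (u' - u) = 0) (h2 : ∀ w, cB C (φ' - φ) w = 0) : u' = u ∧ φ' = φ := by
  obtain ⟨h0, g, hg, hgx⟩ := h
  obtain ⟨h0', g', hg', hgx'⟩ := id h'
  have hdD : (u' : V) - (u : V) ∈ cD C :=
    mem_cD.mpr ⟨(cM C).sub_mem u'.2 u.2, fun χ hχ => h1 ⟨χ, hχ⟩⟩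
  have hone : g' * g⁻¹ = 1 := by
    have hmem : g' * g⁻¹ ∈ cK C := (cK C).mul_mem hg' ((cK C).inv_mem hg)
    apply hH.unip (cD C) (cM C) inf_le_left (inv_cD hC) (inv_cM hC) _ (cK_le hC.sub hmem)
    · exact cK_sub_mem hmem
    · intro x hx
      have hz : g⁻¹ x ∈ cM C := cK_map_mem ((cK C).inv_mem hg) hx
      have e1 : x = g (g⁻¹ x) := by simp
      have e2 : (g' * g⁻¹) x - x = (φ' : Dual (ZMod p) V) (g⁻¹ x) • ((u' : V) - (u : V)) := by
        have e3 : ((φ' : Dual (ZMod p) V) - (φ : Dual (ZMod p) V)) (g⁻¹ x) = 0 := h2 ⟨_, hz⟩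
        rw [LinearMap.sub_apply, sub_eq_zero] at e3
        have e4 : (g' * g⁻¹) x = g⁻¹ x + (φ' : Dual (ZMod p) V) (g⁻¹ x) • (u' : V) := by
          rw [LinearEquiv.mul_apply, hgx']
        have e5 : x = g⁻¹ x + (φ : Dual (ZMod p) V) (g⁻¹ x) • (u : V) := by
          rw [← hgx]; exact e1
        generalize g⁻¹ x = z at *
        rw [e4, e5, e3, smul_sub]
        abel
      rw [e2]
      exact (cD C).smul_mem _ hdD
    · intro x hx
      exact cK_fix hmem (mem_cD.mp hx).2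
  have hgg : g' = g := by
    have := mul_inv_eq_one.mp hone
    exact this
  have hall : ∀ x, (φ' : Dual (ZMod p) V) x • (u' : V) = (φ : Dual (ZMod p) V) x • (u : V) := by
    intro x
    have := hgx' x
    rw [hgg, hgx] at this
    exact (add_left_cancel this).symm
  have hφ0 : (φ : Dual (ZMod p) V) ≠ 0 := fun h => hφ (Subtype.ext h)
  have hu0 : (u : V) ≠ 0 := fun h => hu (Subtype.ext h)
  obtain ⟨x, hx⟩ : ∃ x, (φ : Dual (ZMod p) V) x ≠ 0 := by
    by_contra hcon
    push Not at hcon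
    exact hφ0 (LinearMap.ext hcon)
  -- u = c • u'
  set c : ZMod p := (φ' : Dual (ZMod p) V) x / (φ : Dual (ZMod p) V) x with hc
  have huc : (u : V) = c • (u' : V) := by
    have := hall x
    rw [hc, div_eq_inv_mul, mul_smul, this, smul_smul, inv_mul_cancel₀ hx, one_smul]
  have hc0 : c ≠ 0 := by
    intro h; rw [h, zero_smul] at huc; exact hu0 huc
  have hu'0 : (u' : V) ≠ 0 := by
    intro h; rw [h, smul_zero] at huc; exact hu0 huc
  have hφc : ∀ y, (φ' : Dual (ZMod p) V) y = c * (φ : Dual (ZMod p) V) y := by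
    intro y
    have := hall y
    rw [huc, smul_smul] at this
    have h3 := sub_eq_zero.mpr this
    rw [← sub_smul] at h3
    have := (smul_eq_zero.mp h3).resolve_right hu'0
    rw [sub_eq_zero] at this
    rw [this, mul_comm]
  have hφ'0 : φ' ≠ 0 := by
    intro h
    have := hφc x
    rw [h] at this
    simp only [ZeroMemClass.coe_zero, LinearMap.zero_apply] at this
    exact (mul_ne_zero hc0 hx) this.symm
  have hc1 : c = 1 := by
    by_contra hne
    have hD' : (u' : V) ∈ cD C := by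
      have : (u' : V) - (u : V) = (1 - c) • (u' : V) := by rw [huc, sub_smul, one_smul]
      rw [this] at hdD
      have h4 := (cD C).smul_mem (1 - c)⁻¹ hdD
      rwa [smul_smul, inv_mul_cancel₀ (sub_ne_zero.mpr (Ne.symm hne)), one_smul] at h4
    have := comp_r1l hH hC u' φ' h' hφ'0 (fun χ => (mem_cD.mp hD').2 _ χ.2)
    exact hu'0 (congrArg Subtype.val this)
  constructor
  · apply Subtype.ext
    rw [huc, hc1, one_smul]
  · apply Subtype.ext
    ext y
    rw [hφc, hc1, one_mul]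

end Cfsg.Agent.Lib.Helper83.Mc
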