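import Mathlib
import Cfsg.Agent.Lib.Helper83.McBase

set_option autoImplicit false
set_option linter.unusedSectionVars false

/-! Pieces Q2a and Q4a of the S5075 farm. -/

namespace Cfsg.Agent.Lib.Helper83.Mc

open Module

variable {p : ℕ} [Fact p.Prime] {M N : Type*} [AddCommGroup M] [Module (ZMod p) M]
  [AddCommGroup N] [Module (ZMod p) N]
  {B : N →ₗ[ZMod p] M →ₗ[ZMod p] ZMod p} {A : M → N → Prop}

theorem local_dich [Finite M] (S : Sys B A) (hs' : Sym B.flip (Fl A))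
    (hP' : ∀ φ, φ ≠ 0 → Pt (Fl A) φ) (hsurj : Function.Surjective B) (u : M) (hu : u ≠ 0) :
    (∀ χ, B χ u = 0 → A u χ) ∨ (∀ φ w, A u φ → φ ≠ 0 → A w φ → ∃ c : ZMod p, w = c • u) := by
  -- the claim
  have claim : ∀ χ, B χ u = 0 → A u χ ∨ (∀ φ w', φ ≠ 0 → A u φ → A w' φ → B χ w' = 0) := by
    intro χ hχ
    by_contra hcon
    push Not at hcon
    obtain ⟨h1, φ, w', hφ, hA, hA', hne⟩ := hcon
    have hχ0 : χ ≠ 0 := by
      rintro rfl; simp at hne
    obtain ⟨-, w'', hw'', hAw''⟩ := hP' χ hχ0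
    obtain ⟨w, hw, hw2⟩ := hs' φ χ w' w'' hφ hA' (by simpa using hne) hAw'' hw''
    exact h1 (S.club hA (by simpa using hw2) hw hχ)
  by_cases hall : ∀ χ, B χ u = 0 → A u χ
  · exact Or.inl hall
  right
  push Not at hall
  obtain ⟨χ₁, hχ₁, hχ₁A⟩ := hall
  have h2 : ∀ χ, B χ u = 0 → (∀ φ w', φ ≠ 0 → A u φ → A w' φ → B χ w' = 0) := by
    intro χ₂ hχ₂
    by_contra hcon
    have a2 : A u χ₂ := (claim χ₂ hχ₂).resolve_right hcon
    have a1 := (claim χ₁ hχ₁).resolve_left hχ₁A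
    rcases claim (χ₁ + χ₂) (by simp [hχ₁, hχ₂]) with h | h
    · apply hχ₁A
      have := S.subr h a2
      simpa using this
    · apply hcon
      intro φ w' hφ hA hA'
      have e1 := h φ w' hφ hA hA'
      have e2 := a1 φ w' hφ hA hA'
      simpa [e2] using e1
  intro φ w hA hφ hAw
  by_contra hcon
  have hw : w ∉ Submodule.span (ZMod p) {u} := by
    intro h
    obtain ⟨c, hc⟩ := Submodule.mem_span_singleton.mp h
    exact hcon ⟨c, hc.symm⟩
  obtain ⟨f, hf1, hf2⟩ := Submodule.exists_le_ker_of_notMem hw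
  obtain ⟨χ, rfl⟩ := hsurj f
  have hu0 : B χ u = 0 := by
    have : u ∈ LinearMap.ker (B χ) := hf2 (Submodule.mem_span_singleton_self u)
    exact this
  exact hf1 (h2 χ hu0 φ w hφ hA hAw)

theorem exists_both (S : Sys B A) (u v : M) (hu : ∃ χ, B χ u ≠ 0) (hv : ∃ χ, B χ v ≠ 0) :
    ∃ y ψ, A y ψ ∧ y ≠ 0 ∧ B ψ u ≠ 0 ∧ B ψ v ≠ 0 := by
  by_contra hcon
  push Not at hcon
  set Gen : Set N := {ψ | (∃ y, y ≠ 0 ∧ A y ψ) ∧ B ψ u ≠ 0} with hGen
  set X : Submodule (ZMod p) N := Submodule.span (ZMod p) Gen with hX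
  have hXv : ∀ ψ ∈ X, B ψ v = 0 := by
    intro ψ hψ
    induction hψ using Submodule.span_induction with
    | mem ψ hψ =>
      obtain ⟨⟨y, hy, hA⟩, hne⟩ := hψ
      exact hcon y ψ hA hy hne
    | zero => simp
    | add a b _ _ ha hb => simp [ha, hb]
    | smul c a _ ha => simp [ha]
  have hq : ∀ w χ, A w χ → χ ∈ X ∨ ∀ ψ ∈ X, B ψ w = 0 := by
    intro w χ hA
    by_cases hw : w = 0
    · right; intro ψ _; rw [hw]; simp
    by_cases hk : ∀ ψ ∈ Gen, B ψ w = 0
    · right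
      intro ψ hψ
      induction hψ using Submodule.span_induction with
      | mem ψ hψ => exact hk ψ hψ
      | zero => simp
      | add a b _ _ ha hb => simp [ha, hb]
      | smul c a _ ha => simp [ha]
    left
    push Not at hk
    obtain ⟨ψ, ⟨⟨y, hy, hAy⟩, hψu⟩, hψw⟩ := hk
    by_cases hχu : B χ u = 0
    · have hr := S.refl w χ y ψ hA hAy
      have hτ : y + B χ y • w ≠ 0 := by
        intro h0
        have h1 : B χ (y + B χ y • w) = 0 := by rw [h0]; simp
        rw [map_add, map_smul, S.perp w χ hA] at h1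
        simp only [smul_eq_mul, mul_zero, add_zero] at h1
        rw [h1] at h0
        simp only [zero_smul, add_zero] at h0
        exact hy h0
      have hmem : ψ - B ψ w • χ ∈ X := by
        apply Submodule.subset_span
        refine ⟨⟨_, hτ, hr⟩, ?_⟩
        simp [hχu, hψu]
      have hψX : ψ ∈ X := Submodule.subset_span ⟨⟨y, hy, hAy⟩, hψu⟩
      have h3 : B ψ w • χ ∈ X := by
        have := X.sub_mem hψX hmem
        simpa using this
      have := X.smul_mem (B ψ w)⁻¹ h3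
      rwa [smul_smul, inv_mul_cancel₀ hψw, one_smul] at this
    · exact Submodule.subset_span ⟨⟨w, hw, hA⟩, hχu⟩
  rcases S.qirr X hq with hT | hD
  · obtain ⟨χ, hχ⟩ := hv
    exact hχ (hXv χ (by rw [hT]; trivial))
  · have hGe : ∀ ψ, (∃ y, y ≠ 0 ∧ A y ψ) → B ψ u = 0 := by
      intro ψ hψ
      by_contra hne
      exact hne (hD ψ (Submodule.subset_span ⟨hψ, hne⟩) u)
    have hq2 : ∀ w χ, A w χ → χ ∈ LinearMap.ker (B.flip u) ∨ ∀ ψ ∈ LinearMap.ker (B.flip u), B ψ w = 0 := by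
      intro w χ hA
      by_cases hw : w = 0
      · right; intro ψ _; rw [hw]; simp
      · left
        rw [LinearMap.mem_ker, LinearMap.flip_apply]
        exact hGe χ ⟨w, hw, hA⟩
    rcases S.qirr _ hq2 with hT | hD2
    · obtain ⟨χ, hχ⟩ := hu
      have : χ ∈ LinearMap.ker (B.flip u) := by rw [hT]; trivial
      rw [LinearMap.mem_ker, LinearMap.flip_apply] at this
      exact hχ this
    · obtain ⟨u₁, φ₁, hA, hu₁, hφ₁⟩ := S.nt
      have : φ₁ ∈ LinearMap.ker (B.flip u) := by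
        rw [LinearMap.mem_ker, LinearMap.flip_apply]
        exact hGe φ₁ ⟨u₁, hu₁, hA⟩
      exact hφ₁ (S.r1r u₁ φ₁ hA hu₁ (hD2 φ₁ this))

end Cfsg.Agent.Lib.Helper83.Mc
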