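import Mathlib
import Cfsg.Agent.Lib.Helper83.McBase
import Cfsg.Agent.Lib.Helper83.McTv

set_option autoImplicit false
set_option linter.unusedSectionVars false

/-! Small pieces G2a, G4a, G5b1, L1 of the S5075 farm. -/

namespace Cfsg.Agent.Lib.Helper83.Mc

open Module

section abstract

variable {p : ℕ} [Fact p.Prime] {M N : Type*} [AddCommGroup M] [Module (ZMod p) M]
  [AddCommGroup N] [Module (ZMod p) N]
  {B : N →ₗ[ZMod p] M →ₗ[ZMod p] ZMod p}

theorem surj_of_nd [Finite M] [Finite N] (hl : ∀ u, (∀ χ, B χ u = 0) → u = 0)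
    (hr : ∀ φ, (∀ w, B φ w = 0) → φ = 0) : Function.Surjective B := by
  have hi : Function.Injective B := by
    rw [injective_iff_map_eq_zero]
    intro φ h
    exact hr φ (fun w => by rw [h]; rfl)
  have hi' : Function.Injective B.flip := by
    rw [injective_iff_map_eq_zero]
    intro u h
    apply hl u
    intro χ
    have := congrArg (fun f => f χ) h
    simpa using this
  have h1 : finrank (ZMod p) N ≤ finrank (ZMod p) M := by
    have := LinearMap.finrank_le_finrank_of_injective hi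
    rwa [Subspace.dual_finrank_eq] at this
  have h2 : finrank (ZMod p) M ≤ finrank (ZMod p) N := by
    have := LinearMap.finrank_le_finrank_of_injective hi'
    rwa [Subspace.dual_finrank_eq] at this
  have h3 : finrank (ZMod p) N = finrank (ZMod p) (Dual (ZMod p) M) := by
    rw [Subspace.dual_finrank_eq]; omega
  exact (LinearMap.injective_iff_surjective_of_finrank_eq_finrank h3).mp hi

end abstract

section group

variable {p : ℕ} [Fact p.Prime] {V : Type*} [AddCommGroup V] [Module (ZMod p) V]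
variable {H : Subgroup (V ≃ₗ[ZMod p] V)} {C : Set (V × Dual (ZMod p) V)}

theorem gen_of (H : Subgroup (V ≃ₗ[ZMod p] V)) (T : Set (V ≃ₗ[ZMod p] V)) (hHT : H = Subgroup.closure T)
    (hT : ∀ t ∈ T, ∃ (u : V) (φ : Dual (ZMod p) V), u ≠ 0 ∧ φ ≠ 0 ∧ φ u = 0 ∧ ∀ x, t x = x + φ x • u) :
    H = Subgroup.closure {g | ∃ x ∈ TT H, ∀ v, g v = v + x.2 v • x.1} := by
  apply le_antisymm
  · conv_lhs => rw [hHT]
    rw [Subgroup.closure_le]
    intro t ht
    obtain ⟨u, φ, hu, hφ, h0, htx⟩ := hT t ht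
    apply Subgroup.subset_closure
    refine ⟨(u, φ), ⟨hu, hφ, h0, t, ?_, htx⟩, htx⟩
    rw [hHT]; exact Subgroup.subset_closure ht
  · rw [Subgroup.closure_le]
    rintro g ⟨x, ⟨-, -, -, g', hg', hgx'⟩, hg⟩
    have : g = g' := by
      ext v; rw [hg, hgx']
    rw [this]; exact hg'

theorem map_mem_of_inv (hgen : H = Subgroup.closure {g | ∃ x ∈ TT H, ∀ v, g v = v + x.2 v • x.1})
    {W : Submodule (ZMod p) V} (hW : Inv H W) : ∀ h ∈ H, ∀ v ∈ W, h v ∈ W := by
  have key : ∀ h ∈ Subgroup.closure {g : V ≃ₗ[ZMod p] V | ∃ x ∈ TT H, ∀ v, g v = v + x.2 v • x.1},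
      ∀ v ∈ W, h v ∈ W ∧ h⁻¹ v ∈ W := by
    intro h hh
    induction hh using Subgroup.closure_induction with
    | mem g hg =>
      obtain ⟨x, hx, hgx⟩ := hg
      have h0 : x.2 x.1 = 0 := hx.2.2.1
      have hinv : ∀ v, g⁻¹ v = v - x.2 v • x.1 := by
        intro v
        have : g (v - x.2 v • x.1) = v := by
          rw [hgx]; simp [h0]
        calc g⁻¹ v = g⁻¹ (g (v - x.2 v • x.1)) := by rw [this]
          _ = v - x.2 v • x.1 := by simp
      intro v hv
      rw [hgx, hinv]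
      rcases hW x hx with h1 | h1
      · exact ⟨W.add_mem hv (W.smul_mem _ h1), W.sub_mem hv (W.smul_mem _ h1)⟩
      · rw [h1 v hv]; simpa using hv
    | one => intro v hv; simpa using hv
    | mul a b _ _ ha hb =>
      intro v hv
      refine ⟨?_, ?_⟩
      · rw [LinearEquiv.mul_apply]; exact (ha _ (hb v hv).1).1
      · rw [mul_inv_rev, LinearEquiv.mul_apply]; exact (hb _ (ha v hv).2).2
    | inv a _ ha =>
      intro v hv
      rw [inv_inv]
      exact ⟨(ha v hv).2, (ha v hv).1⟩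
  intro h hh v hv
  rw [hgen] at hh
  exact (key h hh v hv).1

theorem exists_rho (K : Subgroup (V ≃ₗ[ZMod p] V)) (W : Submodule (ZMod p) V)
    (h : ∀ g ∈ K, ∀ v ∈ W, g v ∈ W) :
    ∃ ρ : ↥K →* (↥W ≃ₗ[ZMod p] ↥W),
      ∀ (h : ↥K) (v : ↥W), ((ρ h v : ↥W) : V) = (h : V ≃ₗ[ZMod p] V) (v : V) := by
  have hm : ∀ g : ↥K, ∀ v ∈ W, (g : V ≃ₗ[ZMod p] V).toLinearMap v ∈ W := fun g v hv => h g.1 g.2 v hv
  let r : ↥K → (↥W ≃ₗ[ZMod p] ↥W) := fun g =>
    LinearEquiv.ofLinearMap ((g : V ≃ₗ[ZMod p] V).toLinearMap.restrict (hm g))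
      ((((g⁻¹ : ↥K) : V ≃ₗ[ZMod p] V).toLinearMap).restrict (hm g⁻¹))
      (by ext v; simp [LinearMap.restrict_apply]) (by ext v; simp [LinearMap.restrict_apply])
  have hr : ∀ (g : ↥K) (v : ↥W), ((r g v : ↥W) : V) = (g : V ≃ₗ[ZMod p] V) (v : V) := fun g v => rfl
  refine ⟨MonoidHom.mk' r ?_, hr⟩
  intro a b
  ext v
  rw [LinearEquiv.mul_apply, hr, hr, hr]
  simp

theorem comm_of_not_adj {C C' : Set (V × Dual (ZMod p) V)} (h : ∀ x ∈ C, ∀ y ∈ C', ¬ adj x y)
    (a b : V ≃ₗ[ZMod p] V) (ha : a ∈ cK C) (hb : b ∈ cK C') : a * b = b * a := by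
  have h1 : cK C' ≤ Subgroup.centralizer ({g | ∃ x ∈ C, ∀ v, g v = v + x.2 v • x.1} : Set (V ≃ₗ[ZMod p] V)) := by
    rw [cK, Subgroup.closure_le]
    rintro g' ⟨y, hy, hg'⟩
    rw [SetLike.mem_coe, Subgroup.mem_centralizer_iff]
    rintro g ⟨x, hx, hg⟩
    have hxy := h x hx y hy
    unfold adj at hxy
    push Not at hxy
    ext v
    rw [LinearEquiv.mul_apply, LinearEquiv.mul_apply, hg, hg', hg, hg']
    simp only [map_add, map_smul, hxy.1, hxy.2, smul_eq_mul, mul_zero, add_zero]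
    abel
  have h2 : cK C ≤ Subgroup.centralizer (cK C' : Set (V ≃ₗ[ZMod p] V)) := by
    rw [cK, Subgroup.closure_le]
    intro g hg
    rw [SetLike.mem_coe, Subgroup.mem_centralizer_iff]
    intro g' hg'
    exact ((Subgroup.mem_centralizer_iff.mp (h1 hg')) g hg).symm
  exact ((Subgroup.mem_centralizer_iff.mp (h2 ha)) b hb).symm

end group

end Cfsg.Agent.Lib.Helper83.Mc
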