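import Mathlib
import Cfsg.Agent.Lib.Helper83.McBase
import Cfsg.Agent.Lib.Helper83.McTv
import Cfsg.Agent.Lib.Helper94.Symp

set_option autoImplicit false
set_option linter.unusedSectionVars false

/-! Pieces G4c and Q4c of the S5075 farm. -/

namespace Cfsg.Agent.Lib.Helper83.Mc

open Module

section group

variable {p : ℕ} [Fact p.Prime] {V : Type*} [AddCommGroup V] [Module (ZMod p) V]
variable {H : Subgroup (V ≃ₗ[ZMod p] V)} {C : Set (V × Dual (ZMod p) V)}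

theorem rho_Sp [Finite V] (hC : IsComp H C)
    (ρ : ↥(cK C) →* (↥(cM C) ≃ₗ[ZMod p] ↥(cM C)))
    (hρ : ∀ (h : ↥(cK C)) (v : ↥(cM C)), ((ρ h v : ↥(cM C)) : V) = (h : V ≃ₗ[ZMod p] V) (v : V))
    (hr : ∀ φ, (∀ w, cB C φ w = 0) → φ = 0)
    (Bf : ↥(cM C) →ₗ[ZMod p] ↥(cN C)) (hB0 : ∀ x, x ≠ 0 → Bf x ≠ 0) (hBA : ∀ x, cA C x (Bf x))
    (hBu : ∀ x φ, x ≠ 0 → cA C x φ → ∃ c : ZMod p, φ = c • Bf x) :
    ∃ B : LinearMap.BilinForm (ZMod p) ↥(cM C), B.IsAlt ∧ B.Nondegenerate ∧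
        (ρ.range : Set (↥(cM C) ≃ₗ[ZMod p] ↥(cM C))) =
          {f : ↥(cM C) ≃ₗ[ZMod p] ↥(cM C) | ∀ x y, B (f x) (f y) = B x y} := by
  set Bm : LinearMap.BilinForm (ZMod p) ↥(cM C) := (cB C) ∘ₗ Bf with hBm
  have hBm_apply : ∀ x y, Bm x y = ((Bf x : ↥(cN C)) : Dual (ZMod p) V) (y : V) := fun x y => rfl
  have hA : Bm.IsAlt := fun x => (hBA x).1
  have hsw : ∀ x y, Bm x y = - Bm y x := fun x y => Cfsg.Agent.Lib.Helper94.alt_swap hA x y
  have hL : ∀ x, (∀ y, Bm x y = 0) → x = 0 := by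
    intro x hx
    by_contra hne
    exact hB0 x hne (hr _ hx)
  have hN : Bm.Nondegenerate := by
    refine ⟨hL, ?_⟩
    intro y hy
    apply hL
    intro x
    rw [hsw, hy, neg_zero]
  refine ⟨Bm, hA, hN, ?_⟩
  apply Set.Subset.antisymm
  · rintro f ⟨⟨h, hh⟩, rfl⟩
    show ∀ x y, Bm (ρ ⟨h, hh⟩ x) (ρ ⟨h, hh⟩ y) = Bm x y
    induction hh using Subgroup.closure_induction with
    | mem g hg =>
      obtain ⟨x, hx, hgx⟩ := hg
      have hx0 : (⟨x.1, fst_mem_cM hx⟩ : ↥(cM C)) ≠ 0 := fun h => (hC.sub hx).1 (congrArg Subtype.val h)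
      obtain ⟨c, hc⟩ := hBu ⟨x.1, fst_mem_cM hx⟩ ⟨x.2, snd_mem_cN hx⟩ hx0 (tv_of_mem hC.sub hx)
      set a : ↥(cM C) := ⟨x.1, fst_mem_cM hx⟩ with ha
      have hx2 : ∀ y : ↥(cM C), x.2 (y : V) = c * Bm a y := by
        intro y
        have := congrArg (fun φ : ↥(cN C) => (φ : Dual (ZMod p) V) (y : V)) hc
        rw [hBm_apply]
        simpa using this
      have hact : ∀ y : ↥(cM C), ρ ⟨g, Subgroup.subset_closure ⟨x, hx, hgx⟩⟩ y = y + (c * Bm a y) • a := by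
        intro y
        apply Subtype.ext
        rw [hρ]
        simp only [Submodule.coe_add, Submodule.coe_smul]
        rw [hgx, hx2]
      intro y z
      rw [hact, hact]
      simp only [map_add, map_smul, LinearMap.add_apply, LinearMap.smul_apply, smul_eq_mul, hA a]
      rw [hsw y a]
      ring
    | one =>
      intro x y
      have : (⟨1, (cK C).one_mem⟩ : ↥(cK C)) = 1 := rfl
      rw [this, map_one]; rfl
    | mul a b ha hb iha ihb =>
      intro x y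
      have : (⟨a * b, (cK C).mul_mem ha hb⟩ : ↥(cK C)) = ⟨a, ha⟩ * ⟨b, hb⟩ := rfl
      rw [this, map_mul, LinearEquiv.mul_apply, LinearEquiv.mul_apply, iha, ihb]
    | inv a ha iha =>
      intro x y
      have : (⟨a⁻¹, (cK C).inv_mem ha⟩ : ↥(cK C)) = ⟨a, ha⟩⁻¹ := rfl
      rw [this, map_inv]
      have := iha ((ρ ⟨a, ha⟩)⁻¹ x) ((ρ ⟨a, ha⟩)⁻¹ y)
      simpa using this.symm
  · intro f hf
    apply Cfsg.Agent.Lib.Helper94.mem_of_isIsom hA hN ρ.range _ f hf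
    intro v c
    obtain ⟨-, g, hg, hgx⟩ := Tv.smulr (-c) (hBA v)
    refine ⟨⟨g, hg⟩, ?_⟩
    ext y
    rw [hρ, Cfsg.Agent.Lib.Helper94.st_apply]
    simp only [Submodule.coe_add, Submodule.coe_smul]
    rw [hgx]
    congr 2
    rw [hsw y v, hBm_apply]
    simp

end group

section abstract

variable {p : ℕ} [Fact p.Prime] {M N : Type*} [AddCommGroup M] [Module (ZMod p) M]
  [AddCommGroup N] [Module (ZMod p) N]
  {B : N →ₗ[ZMod p] M →ₗ[ZMod p] ZMod p} {A : M → N → Prop}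

lemma card_ker_mul [Finite N] (f : N →ₗ[ZMod p] ZMod p) (hf : f ≠ 0) :
    {χ | f χ = 0}.ncard * p = Nat.card N := by
  have hsurj : Function.Surjective f := by
    obtain ⟨x, hx⟩ : ∃ x, f x ≠ 0 := by
      by_contra hcon
      push Not at hcon
      exact hf (LinearMap.ext hcon)
    intro c
    exact ⟨(c / f x) • x, by simp [hx]⟩
  have h1 : Nat.card N = Nat.card (LinearMap.ker f) * Nat.card (N ⧸ LinearMap.ker f) := by
    exact Submodule.card_eq_card_quotient_mul_card (LinearMap.ker f)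
  have h2 : Nat.card (N ⧸ LinearMap.ker f) = p := by
    rw [Nat.card_congr (f.quotKerEquivOfSurjective hsurj).toEquiv, Nat.card_zmod]
  have h3 : {χ | f χ = 0}.ncard = Nat.card (LinearMap.ker f) := by
    rw [← Nat.card_coe_set_eq]; rfl
  rw [h1, h2, h3]

theorem sl_prop [Finite N] (S : Sys B A)
    (hc : ∀ u v, Pt A u → Pt A v → {φ | A u φ}.ncard = {φ | A v φ}.ncard)
    (hP : ∀ u, u ≠ 0 → Pt A u) (hnd : ∀ u, (∀ χ, B χ u = 0) → u = 0)
    {u₀ : M} (hu₀ : u₀ ≠ 0) (h : ∀ χ, B χ u₀ = 0 → A u₀ χ) : ∀ v χ, B χ v = 0 → A v χ := by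
  intro v χ hχ
  by_cases hv : v = 0
  · rw [hv]; exact S.zl χ
  have hne : ∀ u, u ≠ 0 → B.flip u ≠ 0 := by
    intro u hu h0
    apply hu
    apply hnd
    intro χ
    have := congrArg (fun f => f χ) h0
    simpa using this
  have hpp : 0 < p := (Fact.out : p.Prime).pos
  have e1 : {χ | B.flip u₀ χ = 0}.ncard = {χ | B.flip v χ = 0}.ncard := by
    have a1 := card_ker_mul (B.flip u₀) (hne u₀ hu₀)
    have a2 := card_ker_mul (B.flip v) (hne v hv)
    exact Nat.eq_of_mul_eq_mul_right hpp (a1.trans a2.symm)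
  have e2 : {φ | A u₀ φ} = {χ | B.flip u₀ χ = 0} := by
    ext φ
    constructor
    · intro hφ; exact S.perp _ _ hφ
    · intro hφ; exact h φ hφ
  have e3 : {φ | A v φ} = {χ | B.flip v χ = 0} := by
    apply Set.eq_of_subset_of_ncard_le
    · intro φ hφ; exact S.perp _ _ hφ
    · rw [← e1, ← e2, hc u₀ v (hP _ hu₀) (hP _ hv)]
    · exact Set.toFinite _
  have : χ ∈ {φ | A v φ} := by rw [e3]; exact hχ
  exact this

end abstract

end Cfsg.Agent.Lib.Helper83.Mc
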