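import Mathlib
import Cfsg.Agent.Lib.Helper83.McBase
import Cfsg.Agent.Lib.Helper83.McSmall
import Cfsg.Agent.Lib.Helper83.McSp
import Cfsg.Agent.Lib.Helper83.McQ
import Cfsg.Agent.Lib.Helper34.McQ1
import Cfsg.Agent.Lib.Helper34.McQ2b
import Cfsg.Agent.Lib.Helper34.McQ3
import Cfsg.Agent.Lib.Helper64.McT4a
import Cfsg.Agent.Lib.Helper72.McT4b

set_option autoImplicit false
set_option linter.unusedSectionVars false

/-! Assembly of the abstract McLaughlin theorem. -/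

namespace Cfsg.Agent.Lib.Helper83.Mc

open Module

variable {p : ℕ} [Fact p.Prime] {M N : Type*} [AddCommGroup M] [Module (ZMod p) M]
  [AddCommGroup N] [Module (ZMod p) N]
  {B : N →ₗ[ZMod p] M →ₗ[ZMod p] ZMod p} {A : M → N → Prop}

theorem main [Finite M] [Finite N] (h2 : (2 : ZMod p) ≠ 0) (S : Sys B A) :
    (∀ u, (∀ χ, B χ u = 0) → u = 0) ∧ (∀ φ, (∀ w, B φ w = 0) → φ = 0) ∧
    ((∀ u φ, B φ u = 0 → A u φ) ∨
      ∃ Bf : M →ₗ[ZMod p] N, (∀ x, x ≠ 0 → Bf x ≠ 0) ∧ (∀ x, A x (Bf x)) ∧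
        (∀ x φ, x ≠ 0 → A x φ → ∃ c : ZMod p, φ = c • Bf x)) := by
  have S' := S.flip
  have hs : Sym B A := Cfsg.Agent.Lib.Helper34.Mc.sym S
  have hs' : Sym B.flip (Fl A) := Cfsg.Agent.Lib.Helper34.Mc.sym S'
  have hadd := Cfsg.Agent.Lib.Helper34.Mc.add_mem S hs h2 (exists_both S)
  have hadd' := Cfsg.Agent.Lib.Helper34.Mc.add_mem S' hs' h2 (exists_both S')
  have hl := Cfsg.Agent.Lib.Helper34.Mc.ndl S hs hadd
  have hr' := Cfsg.Agent.Lib.Helper34.Mc.ndl S' hs' hadd'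
  have hr : ∀ φ, (∀ w, B φ w = 0) → φ = 0 := fun φ h => hr' φ (fun w => by simpa using h w)
  have hP := Cfsg.Agent.Lib.Helper34.Mc.all_pt S hadd hl
  have hP' := Cfsg.Agent.Lib.Helper34.Mc.all_pt S' hadd' hr'
  have hsurj : Function.Surjective B := surj_of_nd hl hr
  have hsurj' : Function.Surjective B.flip :=
    surj_of_nd (B := B.flip) hr' (fun u h => hl u (fun χ => by simpa using h χ))
  refine ⟨hl, hr, ?_⟩
  by_cases h : ∃ u₀, u₀ ≠ 0 ∧ ∀ χ, B χ u₀ = 0 → A u₀ χ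
  · obtain ⟨u₀, hu₀, h⟩ := h
    exact Or.inl (fun u φ => sl_prop S (Cfsg.Agent.Lib.Helper34.Mc.card_eq S) hP hl hu₀ h u φ)
  by_cases h' : ∃ φ₀, φ₀ ≠ 0 ∧ ∀ w, B.flip w φ₀ = 0 → Fl A φ₀ w
  · obtain ⟨φ₀, hφ₀, h'⟩ := h'
    exact Or.inl (fun u φ hu => sl_prop S' (Cfsg.Agent.Lib.Helper34.Mc.card_eq S') hP' hr' hφ₀ h' φ u (by simpa using hu))
  right
  have thin : ∀ u φ φ', u ≠ 0 → φ ≠ 0 → A u φ → A u φ' → ∃ c : ZMod p, φ' = c • φ := by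
    intro u φ φ' hu hφ hA hA'
    have hss : Sym B.flip.flip (Fl (Fl A)) := fun u v φ ψ' h0 h1 h2 h3 h4 => hs u v φ ψ' h0 h1 h2 h3 h4
    rcases local_dich S' hss (fun u hu => hP u hu) hsurj' φ hφ with hd | hd
    · exact absurd ⟨φ, hφ, hd⟩ h'
    · exact hd u φ' hA hu hA'
  obtain ⟨e, ε, heε, he, hε⟩ := S.nt
  obtain ⟨β, h1, h3, h4⟩ := Cfsg.Agent.Lib.Helper64.Mc.exists_beta S hs hP thin he hε heε
  obtain ⟨Bf, hB0, hBA⟩ := Cfsg.Agent.Lib.Helper72.Mc.exists_form S h2 hP thin he hε heε β h1 h3 h4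
  exact ⟨Bf, hB0, hBA, fun x φ hx hA => thin x (Bf x) φ hx (hB0 x hx) (hBA x) hA⟩

end Cfsg.Agent.Lib.Helper83.Mc
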