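import Mathlib
import Cfsg.Prelude.Def_Solvable
import Cfsg.Agent.Lib.Helper83.McBase
import Cfsg.Agent.Lib.Helper83.McTv
import Cfsg.Agent.Lib.Helper83.McSmall
import Cfsg.Agent.Lib.Helper83.McComp
import Cfsg.Agent.Lib.Helper83.McSp
import Cfsg.Agent.Lib.Helper83.McMain
import Cfsg.Agent.Lib.Helper34.McSLabs
import Cfsg.Agent.Lib.Helper72.McG0
import Cfsg.Agent.Lib.Helper72.McG2b
import Cfsg.Agent.Lib.Helper72.McG4b
import Cfsg.Agent.Lib.Helper72.McG5a
import Cfsg.Agent.Lib.Helper72.McG5b2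
import Cfsg.Agent.Lib.Helper72.McG5d
import Cfsg.Agent.Lib.Helper72.McG5e

set_option autoImplicit false
set_option linter.unusedSectionVars false

/-! Assembly of McLaughlin's theorem at the group level. -/

namespace Cfsg.Agent.Lib.Helper83.Mc

open Module

variable {p : ℕ} [Fact p.Prime] {V : Type*} [AddCommGroup V] [Module (ZMod p) V]
variable {H : Subgroup (V ≃ₗ[ZMod p] V)} {C : Set (V × Dual (ZMod p) V)}

theorem sys_of_comp (hH : Good H) (hC : IsComp H C) : Sys (cB C) (cA C) where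
  perp := fun u φ h => h.1
  zl := fun φ => Tv.zl _ _
  zr := fun u => Tv.zr _ _
  addl := fun u u' φ h h' => Tv.addl h h'
  addr := fun u φ φ' h h' => Tv.addr h h'
  refl := fun w χ u φ h h' => Tv.refl h h'
  qirl := comp_qirl hH hC
  qirr := comp_qirr hH hC
  r1l := comp_r1l hH hC
  r1r := comp_r1r hH hC
  l1 := comp_l1 hH hC
  nt := by
    obtain ⟨x, hx⟩ := hC.ne
    obtain ⟨h1, h2, -⟩ := hC.sub hx
    refine ⟨⟨x.1, fst_mem_cM hx⟩, ⟨x.2, snd_mem_cN hx⟩, tv_of_mem hC.sub hx, ?_, ?_⟩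
    · intro h; exact h1 (congrArg Subtype.val h)
    · intro h; exact h2 (congrArg Subtype.val h)

theorem comp_res [Finite V] (h2 : (2 : ZMod p) ≠ 0) (hH : Good H) (hC : IsComp H C) :
    (∀ u ∈ cM C, (∀ φ ∈ cN C, φ u = 0) → u = 0) ∧ (∀ φ ∈ cN C, (∀ u ∈ cM C, φ u = 0) → φ = 0) ∧
      RhoOK (cK C) (cM C) := by
  have : Finite (Dual (ZMod p) V) := Finite.of_injective _ DFunLike.coe_injective
  obtain ⟨hl, hr, alt⟩ := main h2 (sys_of_comp hH hC)
  refine ⟨?_, ?_, ?_⟩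
  · intro u hu h
    have := hl ⟨u, hu⟩ (fun χ => h χ.1 χ.2)
    exact congrArg Subtype.val this
  · intro φ hφ h
    have := hr ⟨φ, hφ⟩ (fun w => h w.1 w.2)
    exact congrArg Subtype.val this
  · obtain ⟨ρ, hρ⟩ := exists_rho (cK C) (cM C) (fun g hg v hv => cK_map_mem hg hv)
    refine ⟨ρ, hρ, ?_⟩
    rcases alt with hall | ⟨Bf, hB0, hBA, hBu⟩
    · left
      exact Cfsg.Agent.Lib.Helper72.Mc.rho_SL hC ρ hρ (surj_of_nd hl hr) hall (fun G hG e he => Cfsg.Agent.Lib.Helper34.Mc.mem_of_det_one G hG e he)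
    · right
      exact rho_Sp hC ρ hρ hr Bf hB0 hBA hBu

theorem final [Finite V] (hp : Odd p) (H : Subgroup (V ≃ₗ[ZMod p] V)) (T : Set (V ≃ₗ[ZMod p] V))
    (hHT : H = Subgroup.closure T)
    (hT : ∀ t ∈ T, orderOf t = p ∧
      Module.finrank (ZMod p) ↥(LinearMap.ker ((t : V →ₗ[ZMod p] V) - LinearMap.id)) + 1 =
        Module.finrank (ZMod p) V)
    (hOp : Cfsg.pCore p ↥H = ⊥) : Concl H := by
  have h2 : (2 : ZMod p) ≠ 0 := by
    intro h
    have h' : ((2 : ℕ) : ZMod p) = 0 := by exact_mod_cast h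
    rw [ZMod.natCast_eq_zero_iff] at h'
    have hp2 : p = 2 := ((Nat.prime_dvd_prime_iff_eq (Fact.out : p.Prime) Nat.prime_two).mp h')
    subst hp2
    exact absurd hp (by decide)
  have hT' := fun t ht => Cfsg.Agent.Lib.Helper72.Mc.tv_of_order t (hT t ht).1 (hT t ht).2
  have hgen := gen_of H T hHT hT'
  have hinv : ∀ W : Submodule (ZMod p) V, Inv H W → ∀ h ∈ H, ∀ v ∈ W, h v ∈ W :=
    fun W hW => map_mem_of_inv hgen hW
  have hH : Good H := ⟨hgen, fun D M hDM hD hM h hh c1 c2 c3 =>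
    Cfsg.Agent.Lib.Helper72.Mc.unip_of hp H hOp D M hDM (hinv D hD) (hinv M hM) h hh c1 c2 c3⟩
  obtain ⟨n, C, hC, hcov, hdisj⟩ := Cfsg.Agent.Lib.Helper72.Mc.exists_comps H
  rcases Nat.eq_zero_or_pos n with rfl | hn
  · have hbot : H = ⊥ := by
      rw [hgen, Subgroup.closure_eq_bot_iff]
      rintro g ⟨x, hx, -⟩
      obtain ⟨i, -⟩ := hcov x hx
      exact i.elim0
    rw [hbot]
    exact Cfsg.Agent.Lib.Helper72.Mc.concl_bot
  · have hres := fun i => comp_res h2 hH (hC i)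
    have hna : ∀ i j, i ≠ j → ∀ x ∈ C i, ∀ y ∈ C j, ¬ adj x y := by
      intro i j hij x hx y hy hadj
      have := (hC i).closed x hx y ((hC j).sub hy) hadj
      exact Set.disjoint_left.mp (hdisj i j hij) this hy
    have h1 : ∀ i j, i ≠ j → ∀ φ ∈ cN (C i), ∀ u ∈ cM (C j), φ u = 0 := by
      intro i j hij φ hφ u hu
      induction hu using Submodule.span_induction with
      | mem v hv =>
        obtain ⟨x, hx, rfl⟩ := hv
        have hxi : x ∉ C i := fun h => Set.disjoint_left.mp (hdisj i j hij) h hx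
        exact (perp_of_notMem (hC i) ((hC j).sub hx) hxi).2 φ hφ
      | zero => simp
      | add a b _ _ ha hb => simp [ha, hb]
      | smul c a _ ha => simp [ha]
    have hint := Cfsg.Agent.Lib.Helper72.Mc.isInternal_cons (fun i => cM (C i)) (fun i => cN (C i)) h1
      (fun i => (hres i).1) (fun i => (hres i).2.1)
    exact Cfsg.Agent.Lib.Helper72.Mc.concl_of_comps hH hinv hn C hC hcov hdisj
      (fun i j hij a ha b hb => comm_of_not_adj (hna i j hij) a b ha hb) hint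
      (fun i => (hres i).2.2)

end Cfsg.Agent.Lib.Helper83.Mc
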